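import Mathlib

/-!
Permutations of prime order: their cycles and invariant sets.
-/

open Equiv Finset

namespace Cfsg.Agent.H80

variable {α : Type*} [Fintype α] [DecidableEq α]

/-- There is a permutation of order `r` with `q` cycles of length `r`, when there is room. -/
theorem exists_perm_replicate {r q : ℕ} (hr : r.Prime) (hq : 1 ≤ q) (h : r * q ≤ Fintype.card α) :
    ∃ σ : Perm α, orderOf σ = r ∧ σ.support.card = r * q := by
  obtain ⟨σ, hσ⟩ := (Equiv.Perm.exists_with_cycleType_iff α (m := Multiset.replicate q r)).2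
    ⟨by rw [Multiset.sum_replicate, smul_eq_mul, mul_comm]; exact h,
      fun a ha => (Multiset.eq_of_mem_replicate ha).symm ▸ hr.two_le⟩
  refine ⟨σ, ?_, ?_⟩
  · haveI := Fact.mk hr
    refine orderOf_eq_prime ?_ ?_
    · refine Equiv.Perm.pow_prime_eq_one_iff.2 fun c hc => ?_
      rw [hσ] at hc
      exact Multiset.eq_of_mem_replicate hc
    · rintro rfl
      rw [Equiv.Perm.cycleType_one] at hσ
      have := congrArg Multiset.card hσ
      simp at this
      omega
  · rw [← Equiv.Perm.sum_cycleType, hσ, Multiset.sum_replicate, smul_eq_mul, mul_comm]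

/-- The cycle factors of a permutation of prime order have that many points. -/
theorem card_support_of_mem_cycleFactors {r : ℕ} (hr : r.Prime) {σ : Perm α} (hσ : orderOf σ = r)
    {c : Perm α} (hc : c ∈ σ.cycleFactorsFinset) : c.support.card = r := by
  have h : c.support.card ∈ σ.cycleType := by
    rw [Equiv.Perm.cycleType_def]
    exact Multiset.mem_map.2 ⟨c, hc, rfl⟩
  have h1 := Equiv.Perm.dvd_of_mem_cycleType h
  have h2 := Equiv.Perm.two_le_of_mem_cycleType h
  rcases (Nat.dvd_prime hr).1 (hσ ▸ h1) with h3 | h3 <;> omega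

/-- The moved points of a permutation of prime order are `r` times its number of cycles. -/
theorem card_support_eq_mul {r : ℕ} (hr : r.Prime) {σ : Perm α} (hσ : orderOf σ = r) :
    σ.support.card = r * σ.cycleFactorsFinset.card := by
  rw [← Equiv.Perm.sum_cycleType, Equiv.Perm.cycleType_def, mul_comm]
  refine (Finset.sum_eq_multiset_sum σ.cycleFactorsFinset _).symm.trans ?_
  exact Finset.sum_const_nat fun c hc => card_support_of_mem_cycleFactors hr hσ hc

omit [Fintype α] in
/-- An invariant set is closed under the permutation. -/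
theorem apply_mem_iff_of_image_eq {σ : Perm α} {s : Finset α} (h : s.image σ = s) (x : α) :
    σ x ∈ s ↔ x ∈ s := by
  conv_lhs => rw [← h]
  simp

/-- An invariant set of a permutation of prime order meets the moved points in a multiple of
the order. -/
theorem dvd_card_inter_support {r : ℕ} (hr : r.Prime) {σ : Perm α} (hσ : orderOf σ = r)
    {s : Finset α} (hs : s.image σ = s) : r ∣ (s ∩ σ.support).card := by
  haveI := Fact.mk hr
  have hpow : σ.subtypePerm (apply_mem_iff_of_image_eq hs) ^ r ^ 1 = 1 := by
    rw [pow_one, Equiv.Perm.subtypePerm_pow]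
    ext x
    simp [← hσ, pow_orderOf_eq_one]
  have h := Equiv.Perm.card_compl_support_modEq hpow
  rw [card_compl] at h
  have hsupp : (σ.subtypePerm (apply_mem_iff_of_image_eq hs)).support.card =
      (s ∩ σ.support).card := by
    rw [← card_image_of_injective _ Subtype.val_injective]
    congr 1
    ext x
    constructor
    · intro hx
      obtain ⟨⟨y, hy⟩, hy', rfl⟩ := mem_image.1 hx
      refine mem_inter.2 ⟨hy, ?_⟩
      simpa [Equiv.Perm.mem_support, Subtype.ext_iff] using hy'
    · intro hx
      obtain ⟨hy, hy'⟩ := mem_inter.1 hx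
      exact mem_image.2 ⟨⟨x, hy⟩, by
        simpa [Equiv.Perm.mem_support, Subtype.ext_iff] using hy', rfl⟩
  have hle := (σ.subtypePerm (apply_mem_iff_of_image_eq hs)).support.card_le_univ
  rw [← Int.natCast_dvd_natCast, ← hsupp]
  have h' := (Nat.modEq_iff_dvd.1 h)
  push_cast [hle] at h'
  simpa using h'

/-- An invariant set with `i` cycles and `j` fixed points. -/
theorem exists_invariant_card {r : ℕ} (hr : r.Prime) {σ : Perm α} (hσ : orderOf σ = r) {i j : ℕ}
    (hi : i ≤ σ.cycleFactorsFinset.card) (hj : j + σ.support.card ≤ Fintype.card α) :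
    ∃ s : Finset α, s.card = i * r + j ∧ s.image σ = s := by
  obtain ⟨C, hC, hCi⟩ := exists_subset_card_eq hi
  obtain ⟨F, hF, hFj⟩ := exists_subset_card_eq (s := σ.supportᶜ) (n := j)
    (by rw [card_compl]; omega)
  have hsub : ∀ c ∈ C, c.support ⊆ σ.support := fun c hc =>
    Equiv.Perm.mem_cycleFactorsFinset_support_le (hC hc)
  refine ⟨C.biUnion Equiv.Perm.support ∪ F, ?_, ?_⟩
  · rw [card_union_of_disjoint, card_biUnion, hFj, sum_const_nat
      (fun c hc => card_support_of_mem_cycleFactors hr hσ (hC hc)), hCi]
    · intro c hc d hd hcd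
      exact (Equiv.Perm.disjoint_iff_disjoint_support.1
        (Equiv.Perm.cycleFactorsFinset_pairwise_disjoint σ (hC hc) (hC hd) hcd))
    · refine disjoint_left.2 fun x hx hxF => mem_compl.1 (hF hxF) ?_
      obtain ⟨c, hc, hxc⟩ := mem_biUnion.1 hx
      exact hsub c hc hxc
  · refine eq_of_subset_of_card_le ?_ (by rw [card_image_of_injective _ σ.injective])
    intro y hy
    obtain ⟨x, hx, rfl⟩ := mem_image.1 hy
    rcases mem_union.1 hx with hx | hx
    · obtain ⟨c, hc, hxc⟩ := mem_biUnion.1 hx
      refine mem_union_left _ (mem_biUnion.2 ⟨c, hc, ?_⟩)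
      rw [← (Equiv.Perm.mem_cycleFactorsFinset_iff.1 (hC hc)).2 x hxc]
      exact Equiv.Perm.apply_mem_support.2 hxc
    · rw [Equiv.Perm.notMem_support.1 (mem_compl.1 (hF hx))]
      exact mem_union_right _ hx

/-- Invariant `k`-sets of all permutations of order `r`, for `r` dividing `n.choose k`. -/
theorem forall_exists_invariant_iff {r n k : ℕ} (hr : r.Prime) (hn : Fintype.card α = n)
    (hrd : r ∣ n.choose k) (hkn : k ≤ n) :
    (∀ σ : Perm α, orderOf σ = r → ∃ s : Finset α, s.card = k ∧ s.image σ = s) ↔
      k % r ≤ n % r := by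
  have hrn : r ≤ n :=
    (hr.dvd_factorial).1 ((Nat.choose_mul_factorial_mul_factorial hkn) ▸
      (hrd.mul_right _).mul_right _)
  constructor
  · intro h
    obtain ⟨σ, hσ, hsupp⟩ := exists_perm_replicate (α := α) hr
      (Nat.div_pos hrn hr.pos) (hn ▸ Nat.mul_div_le n r)
    obtain ⟨s, hs, hσs⟩ := h σ hσ
    obtain ⟨m, hm⟩ := dvd_card_inter_support hr hσ hσs
    have h1 : (s \ σ.support).card ≤ n % r := by
      refine (card_le_card (sdiff_subset_sdiff (subset_univ s) subset_rfl)).trans ?_
      rw [card_sdiff_of_subset (subset_univ _), card_univ, hn, hsupp]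
      have := Nat.div_add_mod n r
      omega
    have h2 := card_sdiff_add_card_inter s σ.support
    rw [hm, hs] at h2
    rw [← h2, Nat.add_mul_mod_self_left, Nat.mod_eq_of_lt
      (h1.trans_lt (Nat.mod_lt _ hr.pos))]
    exact h1
  · intro hk σ hσ
    have hsupp := card_support_eq_mul hr hσ
    have hle := σ.support.card_le_univ
    set c := σ.cycleFactorsFinset.card
    obtain ⟨i, hi, hik, hj⟩ : ∃ i, i ≤ c ∧ i * r ≤ k ∧ k - i * r + r * c ≤ n := by
      refine ⟨min c (k / r), min_le_left _ _, ?_, ?_⟩
      · exact (Nat.mul_le_mul_right r (min_le_right _ _)).trans (Nat.div_mul_le_self k r)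
      · rcases le_total c (k / r) with h | h
        · rw [min_eq_left h]
          have := Nat.mul_le_mul_right r h
          have := Nat.div_mul_le_self k r
          have : r * c = c * r := mul_comm _ _
          omega
        · rw [min_eq_right h]
          have := Nat.div_add_mod k r
          have := Nat.div_add_mod n r
          have hcn : c ≤ n / r := (Nat.le_div_iff_mul_le hr.pos).2 (by
            rw [mul_comm]; rw [hn] at hle; omega)
          have := Nat.mul_le_mul_left r hcn
          have : k / r * r = r * (k / r) := mul_comm _ _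
          omega
    obtain ⟨s, hs, hs'⟩ := exists_invariant_card hr hσ hi (j := k - i * r) (by omega)
    exact ⟨s, by omega, hs'⟩

end Cfsg.Agent.H80
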