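import Cfsg.Agent.H80.AltOverThree
import Cfsg.Agent.H88.MaximalIndexSq

/-! A maximal good set is large, unique, and its alternating group is the generalized Fitting
subgroup, provided the latter is quasisimple. -/

namespace Cfsg.Agent.H80.AltOver

open Equiv Equiv.Perm
open Cfsg.Agent.H51

theorem fin_four_comm : ∀ σ τ : Perm (Fin 4),
    Perm.sign σ = 1 → Perm.sign τ = 1 → σ * σ = 1 → τ * τ = 1 → σ * τ = τ * σ := by decide

variable {α : Type*} [Fintype α] [DecidableEq α] {H : Subgroup (Perm α)}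

theorem normalClosure_commutative {X : Type*} [Group X] (b : X)
    (h : ∀ x y : X, Commute (x * b * x⁻¹) (y * b * y⁻¹)) :
    IsMulCommutative ↥(Subgroup.normalClosure ({b} : Set X)) := by
  rw [Subgroup.normalClosure]
  refine ⟨⟨fun u v => Subtype.ext ?_⟩⟩
  have hall : ∀ u ∈ Subgroup.closure (Group.conjugatesOfSet ({b} : Set X)),
      ∀ v ∈ Subgroup.closure (Group.conjugatesOfSet ({b} : Set X)), u * v = v * u := by
    intro u hu v hv
    refine Subgroup.closure_induction₂ (fun x y hx hy => ?_)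
      (fun _ _ => Commute.one_left _) (fun _ _ => Commute.one_right _)
      (fun _ _ _ _ _ _ h1 h2 => Commute.mul_left h1 h2)
      (fun _ _ _ _ _ _ h1 h2 => Commute.mul_right h1 h2)
      (fun _ _ _ _ h1 => Commute.inv_left h1) (fun _ _ _ _ h1 => Commute.inv_right h1) hu hv
    rw [Group.mem_conjugatesOfSet_iff] at hx hy
    obtain ⟨_, rfl, hx⟩ := hx
    obtain ⟨_, rfl, hy⟩ := hy
    obtain ⟨cx, rfl⟩ := isConj_iff.1 hx
    obtain ⟨cy, rfl⟩ := isConj_iff.1 hy
    exact h cx cy
  exact hall u.1 u.2 v.1 v.2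

/-- no element of a small support generates an abelian normal subgroup -/
theorem no_small (hF : Cfsg.IsQuasisimple ↥(Cfsg.generalizedFittingSubgroup ↥H))
    (b : ↥H) (hb : b ≠ 1) (S : Finset α) (hS : ∀ x, (b : Perm α) x ≠ x → x ∈ S) (hS4 : S.card ≤ 4)
    (hcomm : ∀ x y : ↥H, Commute (x * b * x⁻¹) (y * b * y⁻¹)) : False := by
  classical
  set F := Cfsg.generalizedFittingSubgroup ↥H with hFdef
  haveI := quasisimple_nontrivial hF
  haveI := hF.1
  set B := Subgroup.normalClosure ({b} : Set ↥H) with hBdef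
  haveI hBc : IsMulCommutative B := normalClosure_commutative b hcomm
  have hBF : B ≤ F :=
    le_trans (le_fittingSubgroup_of_commutative inferInstance
      (Subgroup.commutator_self_eq_bot_iff.2 hBc)) (fitting_le_generalizedFitting _)
  haveI : (B.subgroupOf F).Normal := Subgroup.normal_subgroupOf
  have hcen : B.subgroupOf F ≤ Subgroup.center ↥F := by
    rcases quasisimple_eq_top_or_le_center_of_normal hF (B.subgroupOf F) with h | h
    · exfalso
      refine quasisimple_not_isMulCommutative hF ⟨⟨fun u v => ?_⟩⟩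
      have hu : (u : ↥H) ∈ B := by
        have := h ▸ Subgroup.mem_top u
        exact Subgroup.mem_subgroupOf.1 this
      have hv : (v : ↥H) ∈ B := by
        have := h ▸ Subgroup.mem_top v
        exact Subgroup.mem_subgroupOf.1 this
      exact Subtype.ext (Subtype.ext (congrArg (fun z : ↥B => ((z : ↥H) : Perm α)) (hBc.is_comm.comm ⟨_, hu⟩ ⟨_, hv⟩)))
    · exact h
  have hbB : b ∈ B := Subgroup.subset_normalClosure rfl
  have hbF : b ∈ F := hBF hbB
  have hcb : ∀ g : ↥F, ((g : ↥H) : Perm α) * (b : Perm α) = (b : Perm α) * ((g : ↥H) : Perm α) := by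
    intro g
    have h1 := Subgroup.mem_center_iff.1 (hcen (show (⟨b, hbF⟩ : ↥F) ∈ B.subgroupOf F from
      Subgroup.mem_subgroupOf.2 hbB)) g
    exact congrArg (fun z : ↥F => ((z : ↥H) : Perm α)) h1
  set T := Finset.univ.filter (fun x => (b : Perm α) x ≠ x) with hT
  have hT4 : T.card ≤ 4 :=
    le_trans (Finset.card_le_card fun x hx => hS x (Finset.mem_filter.1 hx).2) hS4
  have hpres : ∀ g : ↥F, ∀ x, ((g : ↥H) : Perm α) x ∈ T ↔ x ∈ T := by
    intro g x
    simp only [hT, Finset.mem_filter, Finset.mem_univ, true_and]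
    have := congrArg (fun z : Perm α => z x) (hcb g)
    simp only [Perm.mul_apply] at this
    rw [← this]
    exact not_congr ((g : ↥H) : Perm α).injective.eq_iff
  let φ : ↥F →* Perm {x // x ∈ T} :=
    MonoidHom.mk' (fun g => ((g : ↥H) : Perm α).subtypePerm (hpres g))
      (fun g h => Equiv.ext fun x => Subtype.ext rfl)
  have hsolv : Group.IsSolvable (Perm {x // x ∈ T}) := by
    haveI : Group.IsSolvable (Perm (Fin 4)) := H88.isSolvable_perm_of_card_four (by simp)
    obtain ⟨f⟩ : Nonempty ({x // x ∈ T} ↪ Fin 4) :=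
      Function.Embedding.nonempty_of_card_le (by simpa using hT4)
    exact Group.isSolvable_of_isSolvable_injective (f := Perm.viaEmbeddingHom f)
      (Perm.viaEmbeddingHom_injective f)
  haveI := hsolv
  have htriv : φ.range = ⊥ := by
    by_contra hne
    haveI : Nontrivial φ.range := (Subgroup.nontrivial_iff_ne_bot _).2 hne
    haveI : Group.IsPerfect φ.range :=
      Group.IsPerfect.ofSurjective (f := φ.rangeRestrict) φ.rangeRestrict_surjective
    exact Group.IsPerfect.not_isSolvable φ.range inferInstance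
  obtain ⟨x, hx⟩ : ∃ x, (b : Perm α) x ≠ x := by
    by_contra hc
    simp only [not_exists, not_not] at hc
    exact hb (Subtype.ext (Equiv.ext hc))
  have h1 : φ ⟨b, hbF⟩ = 1 := by
    have : φ ⟨b, hbF⟩ ∈ φ.range := ⟨_, rfl⟩
    rwa [htriv, Subgroup.mem_bot] at this
  have h2 := congrArg (fun z : Perm {x // x ∈ T} => ((z ⟨x, by simp [hT, hx]⟩ : {x // x ∈ T}) : α)) h1
  simp only [φ, MonoidHom.mk'_apply, Perm.subtypePerm_apply, Perm.one_apply] at h2
  exact hx h2

theorem five_le (hF : Cfsg.IsQuasisimple ↥(Cfsg.generalizedFittingSubgroup ↥H))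
    {A : Finset α} (hA : MaxGood H A) : 5 ≤ A.card := by
  classical
  by_contra hlt
  have h3 := hA.1.1
  -- choose an element whose conjugates pairwise commute
  obtain ⟨k, hk1, hsq⟩ : ∃ k : alternatingGroup A, k ≠ 1 ∧ (A.card = 4 → k * k = 1) := by
    by_cases h4 : A.card = 4
    · have e : Fin 4 ≃ {x // x ∈ A} := (A.equivFinOfCardEq h4).symm
      let z : alternatingGroup (Fin 4) :=
        ⟨swap 0 1 * swap 2 3, mem_alternatingGroup.2 (by decide)⟩
      refine ⟨Equiv.altCongrHom e z, ?_, fun _ => ?_⟩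
      · rw [ne_eq, MulEquiv.map_eq_one_iff]
        decide
      · rw [← map_mul, show z * z = 1 by decide, map_one]
    · haveI := alternatingGroup.nontrivial_of_three_le_card (α := {x // x ∈ A}) (by simpa using h3)
      obtain ⟨k, hk⟩ := exists_ne (1 : alternatingGroup A)
      exact ⟨k, hk, fun h => absurd h h4⟩
  set b0 : Perm α := (altOnEquiv A k : Perm α) with hb0
  have hbmem : b0 ∈ altOn A := (altOnEquiv A k).2
  have hb0ne : b0 ≠ 1 := by
    intro h
    apply hk1
    apply (altOnEquiv A).injective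
    rw [map_one]
    exact Subtype.ext h
  let b : ↥H := ⟨b0, altOn_le H hA.1 hbmem⟩
  refine no_small hF b (fun h => hb0ne (congrArg Subtype.val h)) A
    (fun x hx => (mem_altOn.1 hbmem).2 x hx) (by omega) ?_
  intro x y
  suffices hs : Commute ((x : Perm α) * b0 * (x : Perm α)⁻¹) ((y : Perm α) * b0 * (y : Perm α)⁻¹) by
    exact Subtype.ext hs
  have hx' := altOn_conj (σ := (x : Perm α)) hbmem
  have hy' := altOn_conj (σ := (y : Perm α)) hbmem
  rcases maxGood_eq_or_disjoint H (maxGood_image H hA x.2) (maxGood_image H hA y.2) with he | hd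
  · set C := A.image (y : Perm α) with hC
    have hCcard : C.card = A.card := Finset.card_image_of_injective _ (y : Perm α).injective
    rw [he] at hx'
    set u := (altOnEquiv C).symm ⟨_, hx'⟩ with hu
    set v := (altOnEquiv C).symm ⟨_, hy'⟩ with hv
    have huv : u * v = v * u := by
      by_cases h4 : A.card = 4
      · have e : {a // a ∈ C} ≃ Fin 4 := C.equivFinOfCardEq (hCcard.trans h4)
        apply (Equiv.altCongrHom e).injective
        have hbb : b0 * b0 = 1 := by
          rw [hb0, ← Subgroup.coe_mul, ← map_mul, hsq h4, map_one, Subgroup.coe_one]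
        have hsq' : ∀ (c : Perm α) (w : c * b0 * c⁻¹ ∈ altOn C),
            (⟨_, w⟩ : altOn C) * ⟨_, w⟩ = 1 := by
          intro c w
          apply Subtype.ext
          show c * b0 * c⁻¹ * (c * b0 * c⁻¹) = 1
          rw [show c * b0 * c⁻¹ * (c * b0 * c⁻¹) = c * (b0 * b0) * c⁻¹ by group, hbb]
          group
        have hu2 : u * u = 1 := by rw [hu, ← map_mul, hsq', map_one]
        have hv2 : v * v = 1 := by rw [hv, ← map_mul, hsq', map_one]
        rw [map_mul, map_mul]
        apply Subtype.ext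
        refine fin_four_comm _ _ (mem_alternatingGroup.1 (Equiv.altCongrHom e u).2)
          (mem_alternatingGroup.1 (Equiv.altCongrHom e v).2) ?_ ?_
        · rw [← Subgroup.coe_mul, ← map_mul, hu2, map_one, Subgroup.coe_one]
        · rw [← Subgroup.coe_mul, ← map_mul, hv2, map_one, Subgroup.coe_one]
      · haveI := alternatingGroup.isMulCommutative_of_card_le_three (α := {a // a ∈ C})
          (by rw [Nat.card_eq_fintype_card, Fintype.card_coe, hCcard]; omega)
        exact IsMulCommutative.is_comm.comm u v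
    have := congrArg (fun z => ((altOnEquiv C z : altOn C) : Perm α)) huv
    simp only [map_mul, hu, hv, MulEquiv.apply_symm_apply, Subgroup.coe_mul] at this
    exact this
  · exact altOn_commute hd hx' hy'

theorem fstar_eq (hF : Cfsg.IsQuasisimple ↥(Cfsg.generalizedFittingSubgroup ↥H))
    {A : Finset α} (hA : MaxGood H A) :
    (altOn A).subgroupOf H = Cfsg.generalizedFittingSubgroup ↥H := by
  classical
  set F := Cfsg.generalizedFittingSubgroup ↥H with hFdef
  set K := (altOn A).subgroupOf H with hK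
  let e : alternatingGroup A ≃* ↥K :=
    (altOnEquiv A).trans (Subgroup.subgroupOfEquivOfLe (altOn_le H hA.1)).symm
  have h5 := five_le hF hA
  have h5' : 5 ≤ Nat.card {x // x ∈ A} := by simpa using h5
  haveI := alternatingGroup.isSimpleGroup h5'
  haveI : Nontrivial ↥K := e.symm.toEquiv.nontrivial
  haveI hKs : IsSimpleGroup ↥K := e.isSimpleGroup_congr.1 inferInstance
  have hKna : ¬ IsMulCommutative ↥K := by
    intro h
    have h' : IsMulCommutative (alternatingGroup {x // x ∈ A}) :=
      ⟨⟨fun u v => e.injective (by rw [map_mul, map_mul]; exact h.is_comm.comm _ _)⟩⟩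
    rw [alternatingGroup.isMulCommutative_iff_card_le_three] at h'
    omega
  haveI : Group.IsPerfect ↥K := by
    constructor
    rcases (inferInstance : (commutator ↥K).Normal).eq_bot_or_eq_top with h | h
    · exact absurd ((commutator_eq_bot_iff _).1 h) hKna
    · exact h
  have hKq : Cfsg.IsQuasisimple ↥K :=
    isQuasisimple_of_normal_le_center fun N hN => by
      rcases hN.eq_bot_or_eq_top with h | h
      · exact Or.inr (h ▸ bot_le)
      · exact Or.inl h
  set N := Subgroup.normalClosure (K : Set ↥H) with hN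
  have hKN : K ≤ N := Subgroup.le_normalClosure
  have hNle : N ≤ Subgroup.normalizer (K : Set ↥H) := by
    rw [hN, Subgroup.normalClosure, Subgroup.closure_le]
    intro c hc
    rw [Group.mem_conjugatesOfSet_iff] at hc
    obtain ⟨k, hk, hc⟩ := hc
    obtain ⟨σ, rfl⟩ := isConj_iff.1 hc
    have hk' : (k : Perm α) ∈ altOn A := Subgroup.mem_subgroupOf.1 hk
    have hmem : ((σ * k * σ⁻¹ : ↥H) : Perm α) ∈ altOn (A.image (σ : Perm α)) := altOn_conj hk'
    rcases maxGood_eq_or_disjoint H (maxGood_image H hA σ.2) hA with he | hd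
    · rw [he] at hmem
      exact Subgroup.le_normalizer (Subgroup.mem_subgroupOf.2 hmem)
    · refine SetLike.mem_coe.2 (Subgroup.mem_normalizer_iff.2 fun z => ?_)
      constructor
      · intro hz
        have hc := altOn_commute hd hmem (Subgroup.mem_subgroupOf.1 hz)
        have hc' : Commute (σ * k * σ⁻¹) z := Subtype.ext hc
        rwa [hc'.eq, mul_inv_cancel_right]
      · intro hz
        have hc := altOn_commute hd hmem (Subgroup.mem_subgroupOf.1 hz)
        have hc' : Commute (σ * k * σ⁻¹) (σ * k * σ⁻¹ * z * (σ * k * σ⁻¹)⁻¹) := Subtype.ext hc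
        have h2 : z = σ * k * σ⁻¹ * z * (σ * k * σ⁻¹)⁻¹ := by
          have := hc'.eq
          generalize σ * k * σ⁻¹ = c at this ⊢
          calc z = c⁻¹ * (c * z * c⁻¹ * c) := by group
            _ = c⁻¹ * (c * (c * z * c⁻¹)) := by rw [this]
            _ = c * z * c⁻¹ := by group
        rw [h2]
        exact hz
  have hsn : K.IsSubnormal := by
    refine Subgroup.IsSubnormal.step K N hKN ?_ ?_
    · exact Subgroup.Normal.isSubnormal inferInstance
    · rw [Subgroup.normal_subgroupOf_iff_le_normalizer hKN]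
      exact hNle
  have hKF : K ≤ F := le_trans (le_sSup (show Cfsg.IsComponent K from ⟨hsn, hKq⟩)) le_sup_left
  have hsn' : (K.subgroupOf F).IsSubnormal := hsn.subgroupOf
  rcases quasisimple_eq_top_or_le_center_of_subnormal hF _ hsn' with h | h
  · exact le_antisymm hKF (Subgroup.subgroupOf_eq_top.1 h)
  · exfalso
    refine hKna ⟨⟨fun u v => Subtype.ext ?_⟩⟩
    have h1 := Subgroup.mem_center_iff.1 (h (show (⟨(u : ↥H), hKF u.2⟩ : ↥F) ∈ K.subgroupOf F from
      Subgroup.mem_subgroupOf.2 u.2)) ⟨(v : ↥H), hKF v.2⟩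
    exact (congrArg (fun z : ↥F => (z : ↥H)) h1).symm

theorem maxGood_unique (hF : Cfsg.IsQuasisimple ↥(Cfsg.generalizedFittingSubgroup ↥H))
    {A B : Finset α} (hA : MaxGood H A) (hB : MaxGood H B) : A = B := by
  rcases maxGood_eq_or_disjoint H hA hB with h | hd
  · exact h
  · exfalso
    have h1 := fstar_eq hF hA
    rw [← fstar_eq hF hB] at h1
    have hle : altOn A ≤ altOn B := fun g hg =>
      Subgroup.mem_subgroupOf.1 (show (⟨g, altOn_le H hA.1 hg⟩ : ↥H) ∈ (altOn B).subgroupOf H from
        h1 ▸ Subgroup.mem_subgroupOf.2 hg)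
    obtain ⟨a, ha, b, hb, c, hc, hab, hac, hbc⟩ := Finset.two_lt_card.1 hA.1.1
    have h2 : c3 a b c ∈ altOn A :=
      mem_altOn.2 ⟨(c3_isThreeCycle hab hac hbc).sign, fun x hx => by
        by_contra hxA
        exact hx ((c3_apply hab hac hbc).2.2.2 x (fun e => hxA (e ▸ ha)) (fun e => hxA (e ▸ hb))
          (fun e => hxA (e ▸ hc)))⟩
    have h3 := (mem_altOn.1 (hle h2)).2 a (by rw [(c3_apply hab hac hbc).1]; exact hab.symm)
    exact Finset.disjoint_left.1 hd ha h3

theorem conj_threeCycle_mem {n : Subgroup (Perm α)} (a b c : α) (hab : a ≠ b) (hac : a ≠ c)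
    (hbc : b ≠ c) (hHn : H ≤ n) (hc3 : c3 a b c ∈ n) {P : Sylow 3 (Perm α)}
    (hP : (P : Subgroup (Perm α)) ≤ H) : ∃ g ∈ n, g * c3 a b c * g⁻¹ ∈ H := by
  haveI : Fact (Nat.Prime 3) := ⟨Nat.prime_three⟩
  have hPn : (P : Subgroup (Perm α)) ≤ n := hP.trans hHn
  let P' : Sylow 3 ↥n := P.subtype hPn
  have hord : orderOf (⟨c3 a b c, hc3⟩ : ↥n) = 3 := by
    rw [← Subgroup.orderOf_coe]
    exact (c3_isThreeCycle hab hac hbc).orderOf
  have hp : IsPGroup 3 (Subgroup.zpowers (⟨c3 a b c, hc3⟩ : ↥n)) :=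
    IsPGroup.of_card (n := 1) (by rw [Nat.card_zpowers, hord, pow_one])
  obtain ⟨Q, hQ⟩ := hp.exists_le_sylow
  obtain ⟨g, hg⟩ := MulAction.exists_smul_eq ↥n Q P'
  refine ⟨g, g.2, ?_⟩
  have h1 : g * ⟨c3 a b c, hc3⟩ * g⁻¹ ∈ (P' : Subgroup ↥n) := by
    rw [← hg]
    exact Subgroup.smul_mem_pointwise_smul _ (MulAut.conj g) (Q : Subgroup ↥n)
      (hQ (Subgroup.mem_zpowers _))
  exact hP (Subgroup.mem_subgroupOf.1 h1)

theorem main (hα : 5 ≤ Fintype.card α)
    (hF : Cfsg.IsQuasisimple ↥(Cfsg.generalizedFittingSubgroup ↥H))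
    {P : Sylow 3 (Perm α)} (hP : (P : Subgroup (Perm α)) ≤ H) :
    ∃ A : Finset α, Fintype.card α ≤ A.card + 2 ∧
      Nonempty (↥(Cfsg.generalizedFittingSubgroup ↥H) ≃* alternatingGroup A) := by
  classical
  obtain ⟨a, -, b, -, c, -, hab, hac, hbc⟩ :=
    Finset.two_lt_card.1 (show 2 < (Finset.univ : Finset α).card by simp; omega)
  obtain ⟨g, -, hg⟩ := conj_threeCycle_mem (n := ⊤) a b c hab hac hbc le_top (Subgroup.mem_top _) hP
  rw [c3_conj] at hg
  obtain ⟨A, -, hA⟩ := exists_maxGood H (good_triple H (g.injective.ne hab) (g.injective.ne hac)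
    (g.injective.ne hbc) hg)
  refine ⟨A, ?_, ⟨?_⟩⟩
  · by_contra hlt
    have h3 : 2 < (Aᶜ).card := by rw [Finset.card_compl]; omega
    obtain ⟨x, hx, y, hy, z, hz, hxy, hxz, hyz⟩ := Finset.two_lt_card.1 h3
    simp only [Finset.mem_compl] at hx hy hz
    let st : Subgroup (Perm α) :=
      { carrier := {σ | ∀ t, σ t ∈ A ↔ t ∈ A}
        mul_mem' := fun {u v} hu hv t => by rw [Perm.mul_apply, hu, hv]
        one_mem' := fun t => Iff.rfl
        inv_mem' := fun {u} hu t => by rw [← hu, ← Perm.mul_apply, mul_inv_cancel, Perm.one_apply] }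
    have hHst : H ≤ st := by
      intro σ hσ t
      have he := maxGood_unique hF (maxGood_image H hA hσ) hA
      constructor
      · intro h
        rw [← he] at h
        obtain ⟨s, hs, hst⟩ := Finset.mem_image.1 h
        exact σ.injective hst ▸ hs
      · intro h
        rw [← he]
        exact Finset.mem_image_of_mem _ h
    have hcst : c3 x y z ∈ st := by
      intro t
      obtain ⟨h1, h2, h3', h4⟩ := c3_apply hxy hxz hyz
      by_cases e1 : t = x
      · rw [e1, h1]; simp [hx, hy]
      by_cases e2 : t = y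
      · rw [e2, h2]; simp [hy, hz]
      by_cases e3 : t = z
      · rw [e3, h3']; simp [hz, hx]
      rw [h4 t e1 e2 e3]
    obtain ⟨σ, hσ, hσm⟩ := conj_threeCycle_mem (n := st) x y z hxy hxz hyz hHst hcst hP
    rw [c3_conj] at hσm
    obtain ⟨B, hsub, hB⟩ := exists_maxGood H (good_triple H (σ.injective.ne hxy) (σ.injective.ne hxz)
      (σ.injective.ne hyz) hσm)
    have := maxGood_unique hF hB hA
    exact hx ((hσ x).1 (this ▸ hsub (by simp)))
  · exact (MulEquiv.subgroupCongr (fstar_eq hF hA)).symm.trans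
      ((Subgroup.subgroupOfEquivOfLe (altOn_le H hA.1)).trans (altOnEquiv A).symm)

end Cfsg.Agent.H80.AltOver
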