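import Mathlib
import Cfsg.Prelude.Def_Local
import Cfsg.Agent.H51.Quasisimple
import Cfsg.Agent.H51.FStar

/-! Permutation groups containing 3-cycles whose generalized Fitting subgroup is quasisimple. -/

namespace Cfsg.Agent.H80.AltOver

open Equiv Equiv.Perm

variable {α : Type*} [Fintype α] [DecidableEq α]

/-- the 3-cycle `(a b c)` -/
def c3 (a b c : α) : Perm α := swap a b * swap b c

theorem c3_isThreeCycle {a b c : α} (hab : a ≠ b) (hac : a ≠ c) (hbc : b ≠ c) :
    (c3 a b c).IsThreeCycle := by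
  unfold c3
  rw [swap_comm a b]
  exact isThreeCycle_swap_mul_swap_same hab.symm hbc hac

theorem c3_conj (σ : Perm α) (a b c : α) : σ * c3 a b c * σ⁻¹ = c3 (σ a) (σ b) (σ c) := by
  have h : ∀ x y : α, σ * swap x y * σ⁻¹ = swap (σ x) (σ y) := fun x y => by
    rw [swap_apply_apply]
  rw [c3, c3, ← h a b, ← h b c]
  group

theorem c3_apply {a b c : α} (hab : a ≠ b) (hac : a ≠ c) (hbc : b ≠ c) :
    c3 a b c a = b ∧ c3 a b c b = c ∧ c3 a b c c = a ∧
      ∀ x, x ≠ a → x ≠ b → x ≠ c → c3 a b c x = x := by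
  simp only [c3, Perm.mul_apply]
  refine ⟨?_, ?_, ?_, fun x ha hb hc => ?_⟩
  · rw [swap_apply_of_ne_of_ne hab hac, swap_apply_left]
  · rw [swap_apply_left, swap_apply_of_ne_of_ne hac.symm hbc.symm]
  · rw [swap_apply_right, swap_apply_right]
  · rw [swap_apply_of_ne_of_ne hb hc, swap_apply_of_ne_of_ne ha hb]

theorem c3_rot {a b c : α} (hab : a ≠ b) (hac : a ≠ c) (hbc : b ≠ c) : c3 a b c = c3 b c a := by
  obtain ⟨h1, h2, h3, h4⟩ := c3_apply hab hac hbc
  obtain ⟨g1, g2, g3, g4⟩ := c3_apply hbc hab.symm hac.symm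
  ext x
  by_cases ha : x = a
  · rw [ha, h1, g3]
  by_cases hb : x = b
  · rw [hb, h2, g1]
  by_cases hc : x = c
  · rw [hc, h3, g2]
  rw [h4 x ha hb hc, g4 x hb hc ha]

theorem c3_inv {a b c : α} (hab : a ≠ b) (hac : a ≠ c) (hbc : b ≠ c) :
    (c3 a b c)⁻¹ = c3 a c b := by
  obtain ⟨h1, h2, h3, h4⟩ := c3_apply hac hab hbc.symm
  obtain ⟨g1, g2, g3, g4⟩ := c3_apply hab hac hbc
  refine inv_eq_of_mul_eq_one_right ?_
  ext x
  simp only [Perm.mul_apply, Perm.one_apply]
  by_cases ha : x = a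
  · rw [ha, h1, g3]
  by_cases hb : x = b
  · rw [hb, h3, g1]
  by_cases hc : x = c
  · rw [hc, h2, g2]
  rw [h4 x ha hc hb, g4 x ha hb hc]

variable (H : Subgroup (Perm α))

/-- all 3-cycles on `A` lie in `H` -/
def Good (A : Finset α) : Prop :=
  3 ≤ A.card ∧ ∀ a ∈ A, ∀ b ∈ A, ∀ c ∈ A, a ≠ b → a ≠ c → b ≠ c → c3 a b c ∈ H

theorem good_image {A : Finset α} (h : Good H A) {σ : Perm α} (hσ : σ ∈ H) :
    Good H (A.image σ) := by
  refine ⟨by rw [Finset.card_image_of_injective _ σ.injective]; exact h.1, ?_⟩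
  intro a ha b hb c hc hab hac hbc
  simp only [Finset.mem_image] at ha hb hc
  obtain ⟨a', ha', rfl⟩ := ha
  obtain ⟨b', hb', rfl⟩ := hb
  obtain ⟨c', hc', rfl⟩ := hc
  rw [← c3_conj]
  exact H.mul_mem (H.mul_mem hσ (h.2 a' ha' b' hb' c' hc' (fun e => hab (by rw [e]))
    (fun e => hac (by rw [e])) (fun e => hbc (by rw [e])))) (H.inv_mem hσ)

theorem good_triple {a b c : α} (hab : a ≠ b) (hac : a ≠ c) (hbc : b ≠ c) (h : c3 a b c ∈ H) :
    Good H {a, b, c} := by
  have hi : c3 a c b ∈ H := by rw [← c3_inv hab hac hbc]; exact H.inv_mem h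
  refine ⟨by simp [Finset.card_insert_of_notMem, hab, hac, hbc], ?_⟩
  intro x hx y hy z hz hxy hxz hyz
  simp only [Finset.mem_insert, Finset.mem_singleton] at hx hy hz
  rcases hx with rfl | rfl | rfl <;> rcases hy with rfl | rfl | rfl <;>
    rcases hz with rfl | rfl | rfl <;>
    first
      | contradiction
      | exact h
      | exact hi
      | (rw [c3_rot hxy hxz hyz]; first | exact h | exact hi)
      | (rw [c3_rot hxy hxz hyz, c3_rot hyz hxy.symm hxz.symm]; first | exact h | exact hi)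

theorem good_insert {A : Finset α} (h : Good H A) {u v x : α} (hu : u ∈ A) (hv : v ∈ A)
    (huv : u ≠ v) (hx : x ∉ A) (hh : c3 x u v ∈ H) : Good H (insert x A) := by
  have hne : ∀ a ∈ A, x ≠ a := fun a ha e => hx (e ▸ ha)
  let P : α → α → Prop := fun a b => c3 x a b ∈ H
  have sym : ∀ a ∈ A, ∀ b ∈ A, a ≠ b → P a b → P b a := by
    intro a ha b hb hab hp
    show c3 x b a ∈ H
    rw [← c3_inv (hne a ha) (hne b hb) hab]
    exact H.inv_mem hp
  have step : ∀ a ∈ A, ∀ b ∈ A, ∀ w ∈ A, a ≠ b → a ≠ w → b ≠ w → P a b → P b w := by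
    intro a ha b hb w hw hab haw hbw hp
    have := H.mul_mem (H.mul_mem (h.2 a ha b hb w hw hab haw hbw) hp)
      (H.inv_mem (h.2 a ha b hb w hw hab haw hbw))
    rw [c3_conj] at this
    obtain ⟨h1, h2, _, h4⟩ := c3_apply hab haw hbw
    rwa [h1, h2, h4 x (hne a ha) (hne b hb) (hne w hw)] at this
  have all : ∀ a ∈ A, ∀ b ∈ A, a ≠ b → P a b := by
    intro a ha b hb hab
    have h0 : ∃ c ∈ A, c ≠ a ∧ P c a := by
      by_cases hau : a = u
      · exact ⟨v, hv, by rw [hau]; exact huv.symm, by rw [hau]; exact sym u hu v hv huv hh⟩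
      by_cases hav : a = v
      · exact ⟨u, hu, by rw [hav]; exact huv, by rw [hav]; exact hh⟩
      exact ⟨v, hv, Ne.symm hav, step u hu v hv a ha huv (Ne.symm hau) (Ne.symm hav) hh⟩
    obtain ⟨c, hc, hca, hp⟩ := h0
    by_cases hcb : c = b
    · exact sym b hb a ha hab.symm (hcb ▸ hp)
    · exact step c hc a ha b hb hca hcb hab hp
  refine ⟨le_trans h.1 (Finset.card_le_card (Finset.subset_insert _ _)), ?_⟩
  intro a ha b hb c hc hab hac hbc
  rcases Finset.mem_insert.1 ha with rfl | ha'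
  · exact all b ((Finset.mem_insert.1 hb).resolve_left hab.symm) c
      ((Finset.mem_insert.1 hc).resolve_left hac.symm) hbc
  rcases Finset.mem_insert.1 hb with rfl | hb'
  · rw [c3_rot hab hac hbc]
    exact all c ((Finset.mem_insert.1 hc).resolve_left hbc.symm) a ha' hac.symm
  rcases Finset.mem_insert.1 hc with rfl | hc'
  · rw [c3_rot hab hac hbc, c3_rot hbc hab.symm hac.symm]
    exact all a ha' b hb' hab
  exact h.2 a ha' b hb' c hc' hab hac hbc

/-- maximal good sets -/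
def MaxGood (A : Finset α) : Prop := Good H A ∧ ∀ B, Good H B → A ⊆ B → B = A

theorem exists_maxGood {A : Finset α} (h : Good H A) : ∃ B, A ⊆ B ∧ MaxGood H B := by
  classical
  obtain ⟨B, hB, hmax⟩ := (Finset.univ.filter (fun B => Good H B ∧ A ⊆ B)).exists_max_image
    Finset.card ⟨A, by simp [h]⟩
  simp only [Finset.mem_filter, Finset.mem_univ, true_and] at hB hmax
  refine ⟨B, hB.2, hB.1, fun C hC hBC => ?_⟩
  exact (Finset.eq_of_subset_of_card_le hBC (hmax C ⟨hC, hB.2.trans hBC⟩)).symm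

theorem maxGood_meet {A B : Finset α} (hA : MaxGood H A) (hB : Good H B) {y : α} (hy : y ∈ A)
    (hyB : y ∈ B) : B ⊆ A := by
  by_contra hns
  obtain ⟨z, hzB, hzA⟩ := Finset.not_subset.1 hns
  have hyz : y ≠ z := fun e => hzA (e ▸ hy)
  obtain ⟨w, hw, hwy, hwz⟩ : ∃ w ∈ B, w ≠ y ∧ w ≠ z := by
    have h3 := hB.1
    have hcard : 1 ≤ ((B.erase y).erase z).card := by
      have h1 := Finset.pred_card_le_card_erase (a := y) (s := B)
      have h2 := Finset.pred_card_le_card_erase (a := z) (s := B.erase y)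
      omega
    obtain ⟨w, hw⟩ := Finset.card_pos.1 hcard
    simp only [Finset.mem_erase] at hw
    exact ⟨w, hw.2.2, hw.2.1, hw.1⟩
  have hτ : c3 y z w ∈ H := hB.2 y hyB z hzB w hw hyz hwy.symm hwz.symm
  have fin : ∀ x u v, u ∈ A → v ∈ A → u ≠ v → x ∉ A → c3 x u v ∈ H → False := by
    intro x u v hu hv huv hx hh
    have := hA.2 _ (good_insert H hA.1 hu hv huv hx hh) (Finset.subset_insert _ _)
    exact hx (this ▸ Finset.mem_insert_self _ _)
  by_cases hwA : w ∈ A
  · refine fin z w y hwA hy hwy hzA ?_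
    rw [← c3_rot hyz hwy.symm hwz.symm]
    exact hτ
  · obtain ⟨u, hu, v, hv, huy, hvy, huv⟩ : ∃ u ∈ A, ∃ v ∈ A, u ≠ y ∧ v ≠ y ∧ u ≠ v := by
      have h3 := hA.1.1
      have h1 := Finset.pred_card_le_card_erase (a := y) (s := A)
      have h2 : 1 < (A.erase y).card := by omega
      obtain ⟨u, hu, v, hv, huv⟩ := Finset.one_lt_card.1 h2
      simp only [Finset.mem_erase] at hu hv
      exact ⟨u, hu.2, v, hv.2, hu.1, hv.1, huv⟩
    have huz : u ≠ z := fun e => hzA (e ▸ hu)
    have hvz : v ≠ z := fun e => hzA (e ▸ hv)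
    have huw : u ≠ w := fun e => hwA (e ▸ hu)
    have hvw : v ≠ w := fun e => hwA (e ▸ hv)
    have := H.mul_mem (H.mul_mem hτ (hA.1.2 y hy u hu v hv huy.symm hvy.symm huv)) (H.inv_mem hτ)
    rw [c3_conj] at this
    obtain ⟨h1, _, _, h4⟩ := c3_apply hyz hwy.symm hwz.symm
    rw [h1, h4 u huy huz huw, h4 v hvy hvz hvw] at this
    exact fin z u v hu hv huv hzA this

theorem maxGood_eq_or_disjoint {A B : Finset α} (hA : MaxGood H A) (hB : MaxGood H B) :
    A = B ∨ Disjoint A B := by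
  by_cases hd : Disjoint A B
  · exact Or.inr hd
  · obtain ⟨y, hyA, hyB⟩ := Finset.not_disjoint_iff.1 hd
    exact Or.inl (hA.2 B hB.1 (maxGood_meet H hB hA.1 hyB hyA)).symm

theorem maxGood_image {A : Finset α} (hA : MaxGood H A) {σ : Perm α} (hσ : σ ∈ H) :
    MaxGood H (A.image σ) := by
  refine ⟨good_image H hA.1 hσ, fun B hB hAB => ?_⟩
  have h1 : A ⊆ B.image ⇑σ⁻¹ := fun a ha =>
    Finset.mem_image.2 ⟨σ a, hAB (Finset.mem_image_of_mem _ ha), by simp⟩
  have h2 := hA.2 _ (good_image H hB (H.inv_mem hσ)) h1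
  rw [← h2, Finset.image_image]
  ext x
  simp

/-- the even permutations supported on `A` -/
def altOn (A : Finset α) : Subgroup (Perm α) :=
  (alternatingGroup A).map (Perm.ofSubtype : Perm A →* Perm α)

theorem mem_altOn {A : Finset α} {g : Perm α} :
    g ∈ altOn A ↔ Perm.sign g = 1 ∧ ∀ x, g x ≠ x → x ∈ A := by
  constructor
  · rintro ⟨k, hk, rfl⟩
    refine ⟨by rw [sign_ofSubtype]; exact mem_alternatingGroup.1 hk, fun x hx => ?_⟩
    by_contra hA
    exact hx (ofSubtype_apply_of_not_mem k hA)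
  · rintro ⟨hs, hsupp⟩
    have hmem : ∀ x, g x ∈ A ↔ x ∈ A := by
      intro x
      by_cases hx : g x = x
      · rw [hx]
      · exact ⟨fun _ => hsupp x hx, fun _ => hsupp _ (fun e => hx (g.injective e))⟩
    refine ⟨g.subtypePerm hmem, ?_, ?_⟩
    · rw [SetLike.mem_coe, mem_alternatingGroup]
      refine Eq.trans ?_ hs
      convert sign_subtypePerm g hmem hsupp
    · exact ofSubtype_subtypePerm hmem hsupp

theorem altOn_le {A : Finset α} (hA : Good H A) : altOn A ≤ H := by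
  rw [altOn, ← closure_three_cycles_eq_alternating, MonoidHom.map_closure, Subgroup.closure_le]
  rintro _ ⟨τ, hτ, rfl⟩
  obtain ⟨a, ha⟩ : ∃ a, τ a ≠ a := by
    by_contra hc
    simp only [not_exists, not_not] at hc
    exact (IsThreeCycle.isCycle hτ).ne_one (Equiv.ext hc)
  have h3 : τ (τ (τ a)) = a := by
    have := pow_orderOf_eq_one τ
    rw [hτ.orderOf] at this
    have := congrArg (fun g : Perm A => g a) this
    simpa [pow_succ] using this
  have hab : a ≠ τ a := fun e => ha e.symm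
  have hac : a ≠ τ (τ a) := by
    intro e
    have := congrArg τ e
    rw [h3] at this
    exact ha this
  have hbc : τ a ≠ τ (τ a) := fun e => hab (τ.injective e)
  have e : τ = c3 a (τ a) (τ (τ a)) := by
    have hsupp : τ.support = {a, τ a, τ (τ a)} := by
      symm
      refine Finset.eq_of_subset_of_card_le ?_ ?_
      · intro x hx
        simp only [Finset.mem_insert, Finset.mem_singleton] at hx
        rcases hx with rfl | rfl | rfl <;>
          simp only [Perm.mem_support, ne_eq, EmbeddingLike.apply_eq_iff_eq] <;> exact ha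
      · rw [hτ.card_support]
        simp [Finset.card_insert_of_notMem, hab, hac, hbc]
    obtain ⟨g1, g2, g3, g4⟩ := c3_apply hab hac hbc
    ext x : 1
    by_cases hx1 : x = a
    · rw [hx1, g1]
    by_cases hx2 : x = τ a
    · rw [hx2, g2]
    by_cases hx3 : x = τ (τ a)
    · rw [hx3, g3, h3]
    rw [g4 x hx1 hx2 hx3]
    exact Perm.notMem_support.1 (by rw [hsupp]; simp [hx1, hx2, hx3])
  rw [SetLike.mem_coe, e, c3, map_mul, ofSubtype_swap_eq, ofSubtype_swap_eq]
  exact hA.2 _ a.2 _ (τ a).2 _ (τ (τ a)).2 (fun h => hab (Subtype.ext h))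
    (fun h => hac (Subtype.ext h)) (fun h => hbc (Subtype.ext h))

noncomputable def altOnEquiv (A : Finset α) : alternatingGroup A ≃* altOn A :=
  Subgroup.equivMapOfInjective _ _ ofSubtype_injective

theorem altOn_conj {A : Finset α} {g σ : Perm α} (hg : g ∈ altOn A) :
    σ * g * σ⁻¹ ∈ altOn (A.image σ) := by
  obtain ⟨hs, hsupp⟩ := mem_altOn.1 hg
  refine mem_altOn.2 ⟨by simp [hs], fun x hx => ?_⟩
  refine Finset.mem_image.2 ⟨σ⁻¹ x, hsupp _ ?_, by simp⟩
  intro e
  apply hx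
  simp only [Perm.mul_apply, e]
  simp

theorem altOn_commute {A B : Finset α} (hd : Disjoint A B) {g h : Perm α} (hg : g ∈ altOn A)
    (hh : h ∈ altOn B) : Commute g h := by
  refine Perm.Disjoint.commute fun x => ?_
  by_contra hc
  simp only [not_or] at hc
  exact Finset.disjoint_left.1 hd ((mem_altOn.1 hg).2 x hc.1) ((mem_altOn.1 hh).2 x hc.2)

end Cfsg.Agent.H80.AltOver
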