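import Mathlib

/-!
A primitive group with a regular cyclic subgroup of order not a prime power is doubly transitive
(Schur).
-/

open MulAction

namespace Cfsg.Agent.H80

variable {G Ω : Type*} [Group G] [MulAction G Ω]

open scoped Pointwise in
/-- An invariant equivalence relation of a primitive action is trivial. -/
theorem setoid_eq_bot_or_top [IsPreprimitive G Ω] (r : Setoid Ω)
    (h : ∀ (g : G) x y, r x y → r (g • x) (g • y)) : r = ⊥ ∨ r = ⊤ := by
  have hblock : ∀ x, IsBlock G {y | r x y} := by
    intro x g₁ g₂ hne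
    refine Set.disjoint_left.2 ?_
    rintro _ ⟨y, hy, rfl⟩ ⟨z, hz, hzy⟩
    refine hne ?_
    have h1 : r (g₁ • x) (g₂ • x) :=
      r.trans (h g₁ _ _ hy) (r.symm (by simpa only [hzy] using h g₂ _ _ hz))
    ext w
    constructor
    · rintro ⟨u, hu, rfl⟩
      refine ⟨g₂⁻¹ • g₁ • u, ?_, smul_inv_smul _ _⟩
      have := h g₂⁻¹ _ _ (r.trans (r.symm h1) (h g₁ _ _ hu))
      rwa [inv_smul_smul] at this
    · rintro ⟨u, hu, rfl⟩
      refine ⟨g₁⁻¹ • g₂ • u, ?_, smul_inv_smul _ _⟩
      have := h g₁⁻¹ _ _ (r.trans h1 (h g₂ _ _ hu))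
      rwa [inv_smul_smul] at this
  by_cases hall : ∀ x, ({y | r x y} : Set Ω).Subsingleton
  · refine Or.inl (Setoid.ext fun x y => ⟨fun hxy => hall x (r.refl x) hxy, ?_⟩)
    intro hxy
    cases hxy
    exact r.refl x
  · push Not at hall
    obtain ⟨x, hx⟩ := hall
    have hu := ((IsPreprimitive.isTrivialBlock_of_isBlock (hblock x)).resolve_left
      (Set.not_subsingleton_iff.2 hx))
    refine Or.inr (Setoid.ext fun y z => ⟨fun _ => trivial, fun _ => ?_⟩)
    exact r.trans (r.symm (Set.eq_univ_iff_forall.1 hu y)) (Set.eq_univ_iff_forall.1 hu z)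

/-- A primitive group with a regular cyclic subgroup of order divisible by two primes is
doubly transitive. -/
theorem isMultiplyPretransitive_two_of_regular_cyclic [Finite Ω] [Nonempty Ω]
    [IsPreprimitive G Ω]
    (C : Subgroup G) [IsCyclic C] [IsPretransitive C Ω]
    (hfree : ∀ a : Ω, stabilizer C a = ⊥) {p q : ℕ} (hp : p.Prime) (hq : q.Prime) (hpq : p ≠ q)
    (hpn : p ∣ Nat.card Ω) (hqn : q ∣ Nat.card Ω) : IsMultiplyPretransitive G Ω 2 := by
  classical
  haveI := Fintype.ofFinite Ω
  obtain ⟨a⟩ := ‹Nonempty Ω›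
  have he : Function.Bijective fun c : C => c • a := by
    refine ⟨fun c d h => ?_, fun x => exists_smul_eq C a x⟩
    have h1 : d⁻¹ * c ∈ stabilizer C a := by
      rw [mem_stabilizer_iff, mul_smul, show c • a = d • a from h, inv_smul_smul]
    rw [hfree, Subgroup.mem_bot, inv_mul_eq_one] at h1
    exact h1.symm
  haveI : Finite C := Finite.of_injective _ he.1
  haveI := Fintype.ofFinite C
  letI : CommGroup C := IsCyclic.commGroup
  have hcard : Nat.card C = Nat.card Ω := Nat.card_eq_of_bijective _ he
  -- the basic sets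
  let T : Ω → Finset C := fun b =>
    Finset.univ.filter fun c => ∃ g ∈ stabilizer G a, g • b = c • a
  have hTmem : ∀ b c, c ∈ T b ↔ ∃ g ∈ stabilizer G a, g • b = c • a := fun b c => by simp [T]
  -- each basic set meets the kernel of the prime power map
  have key : ∀ {r : ℕ}, r.Prime → r ∣ Nat.card Ω → ∀ b, b ≠ a →
      (∀ c ∈ T b, c ^ r ≠ 1 → ∀ u : C, u ^ r = 1 → c * u ∈ T b) ∧
        ∃ c ∈ T b, c ^ r = 1 ∧ c ≠ 1 := by
    intro r hr hrn b hb
    haveI := Fact.mk hr
    let M : C →* Matrix Ω Ω (ZMod r) :=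
      { toFun := fun c => Matrix.of fun x y => if c • x = y then 1 else 0
        map_one' := by ext x y; simp [Matrix.one_apply]
        map_mul' := fun c d => by
          ext x z
          simp only [Matrix.mul_apply, Matrix.of_apply, ite_mul, one_mul, zero_mul,
            Finset.sum_ite_eq, Finset.mem_univ, if_true]
          simp [← mul_smul, mul_comm c d] }
    set A : Matrix Ω Ω (ZMod r) := ∑ c ∈ T b, M c with hA
    have hAr : A ^ r = ∑ c ∈ T b, M (c ^ r) := by
      haveI : CharP (MonoidAlgebra (ZMod r) C) r :=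
        charP_of_injective_algebraMap (FaithfulSMul.algebraMap_injective (ZMod r) _) r
      let L := MonoidAlgebra.lift (ZMod r) (Matrix Ω Ω (ZMod r)) C M
      have hL : ∀ c, L (MonoidAlgebra.of (ZMod r) C c) = M c := fun c => MonoidAlgebra.lift_of M c
      rw [hA, ← Finset.sum_congr rfl fun c _ => hL c, ← map_sum, ← map_pow, sum_pow_char,
        map_sum]
      exact Finset.sum_congr rfl fun c _ => by rw [← map_pow, hL]
    have hAentry : ∀ x y, A x y = if (∃ g : G, g • a = x ∧ g • b = y) then 1 else 0 := by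
      intro x y
      obtain ⟨d, hd : d • a = x⟩ := he.2 x
      obtain ⟨e, he' : e • a = y⟩ := he.2 y
      have hsum : A x y = if d⁻¹ * e ∈ T b then 1 else 0 := by
        rw [hA, Matrix.sum_apply]
        have : ∀ c : C, M c x y = if c = d⁻¹ * e then 1 else 0 := by
          intro c
          show (if c • x = y then (1 : ZMod r) else 0) = _
          refine if_congr ?_ rfl rfl
          rw [← hd, ← he', ← mul_smul, he.1.eq_iff, eq_inv_mul_iff_mul_eq, mul_comm]
        simp only [this, Finset.sum_ite_eq']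
      rw [hsum]
      refine if_congr ?_ rfl rfl
      rw [hTmem]
      constructor
      · rintro ⟨g, hg, hgb⟩
        refine ⟨(d : G) * g, ?_, ?_⟩
        · rw [mul_smul, mem_stabilizer_iff.1 hg]; exact hd
        · rw [mul_smul, hgb]
          show d • (d⁻¹ * e) • a = y
          rw [← mul_smul, mul_inv_cancel_left]; exact he'
      · rintro ⟨g, hga, hgb⟩
        refine ⟨((d⁻¹ : C) : G) * g, ?_, ?_⟩
        · rw [mem_stabilizer_iff, mul_smul, hga, ← hd]
          exact inv_smul_smul d a
        · rw [mul_smul, hgb, ← he']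
          exact (mul_smul d⁻¹ e a).symm
    have hinv : ∀ (g : G) x y, A (g • x) (g • y) = A x y := by
      intro g x y
      rw [hAentry, hAentry]
      refine if_congr ⟨?_, ?_⟩ rfl rfl
      · rintro ⟨k, h1, h2⟩
        exact ⟨g⁻¹ * k, by rw [mul_smul, h1, inv_smul_smul], by rw [mul_smul, h2, inv_smul_smul]⟩
      · rintro ⟨k, h1, h2⟩
        exact ⟨g * k, by rw [mul_smul, h1], by rw [mul_smul, h2]⟩
    have hinvn : ∀ (k : ℕ) (g : G) x y, (A ^ k) (g • x) (g • y) = (A ^ k) x y := by
      intro k
      induction k with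
      | zero =>
        intro g x y
        simp [Matrix.one_apply]
      | succ k ih =>
        intro g x y
        rw [pow_succ, Matrix.mul_apply, Matrix.mul_apply,
          ← Equiv.sum_comp (MulAction.toPerm g : Equiv.Perm Ω)]
        simp [ih, hinv]
    let K : Subgroup C := (powMonoidHom r).range
    have hker : Nat.card (powMonoidHom r : C →* C).ker = r := by
      rw [IsCyclic.card_powMonoidHom_ker, hcard, Nat.gcd_eq_right hrn]
    have hK : K ≠ ⊤ := fun h => by
      have hinj : Function.Injective (powMonoidHom r : C →* C) :=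
        Finite.injective_iff_surjective.2 (MonoidHom.range_eq_top.1 h)
      rw [(MonoidHom.ker_eq_bot_iff _).2 hinj, Subgroup.card_bot] at hker
      exact hr.ne_one hker.symm
    -- the graph of the `r`-th power is inside the cosets of a proper subgroup
    have hoff : ∀ x y, x ≠ y → (A ^ r) x y = 0 := by
      intro x y hxy
      by_contra hne
      let R : Setoid Ω := Relation.EqvGen.setoid fun x y => (A ^ r) x y ≠ 0
      have hR : ∀ (g : G) x y, R x y → R (g • x) (g • y) := by
        intro g x y h
        induction h with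
        | rel x y h => exact Relation.EqvGen.rel _ _ (by rwa [hinvn])
        | refl x => exact Relation.EqvGen.refl _
        | symm x y _ ih => exact Relation.EqvGen.symm _ _ ih
        | trans x y z _ _ ih1 ih2 => exact Relation.EqvGen.trans _ _ _ ih1 ih2
      have hRK : ∀ x y, R x y → ∃ k ∈ K, k • x = y := by
        intro x y h
        induction h with
        | rel x y h =>
          rw [hAr, Matrix.sum_apply] at h
          obtain ⟨c, -, hc⟩ := Finset.exists_ne_zero_of_sum_ne_zero h
          refine ⟨c ^ r, ⟨c, rfl⟩, ?_⟩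
          by_contra hcx
          exact hc (if_neg hcx)
        | refl x => exact ⟨1, K.one_mem, one_smul _ _⟩
        | symm x y _ ih =>
          obtain ⟨k, hk, rfl⟩ := ih
          exact ⟨k⁻¹, K.inv_mem hk, inv_smul_smul _ _⟩
        | trans x y z _ _ ih1 ih2 =>
          obtain ⟨k, hk, rfl⟩ := ih1
          obtain ⟨l, hl, rfl⟩ := ih2
          exact ⟨l * k, K.mul_mem hl hk, mul_smul _ _ _⟩
      rcases setoid_eq_bot_or_top R hR with h | h
      · have hr' : R x y := Relation.EqvGen.rel _ _ hne
        rw [h] at hr'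
        exact hxy hr'
      · refine hK ((Subgroup.eq_top_iff' K).2 fun c => ?_)
        obtain ⟨k, hk, hka⟩ := hRK a (c • a) (by rw [h]; trivial)
        rwa [← he.1 hka]
    have hfull : ∀ c ∈ T b, c ^ r ≠ 1 → ∀ u : C, u ^ r = 1 → c * u ∈ T b := by
      intro c hc hcr u hu
      have h0 := hoff a (c ^ r • a) (fun h => hcr (he.1 (h.symm.trans (one_smul C a).symm)))
      rw [hAr, Matrix.sum_apply] at h0
      have : ∀ d : C, M (d ^ r) a (c ^ r • a) = if d ^ r = c ^ r then 1 else 0 := fun d =>
        if_congr he.1.eq_iff rfl rfl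
      simp only [this, Finset.sum_boole, ZMod.natCast_eq_zero_iff] at h0
      set s := (T b).filter fun d => d ^ r = c ^ r
      have hsub : s ⊆ (Finset.univ.filter fun d : C => d ^ r = c ^ r) := fun d hd => by
        simp only [s, Finset.mem_filter] at hd
        simp [hd.2]
      have hcardfib : (Finset.univ.filter fun d : C => d ^ r = c ^ r).card = r := by
        refine Eq.trans ?_ hker
        rw [Nat.card_eq_fintype_card, Fintype.card_subtype]
        exact Finset.card_equiv (Equiv.mulLeft c⁻¹) fun d => by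
          simp [mul_pow, inv_mul_eq_one, eq_comm]
      have hpos : 0 < s.card := Finset.card_pos.2 ⟨c, by simp [s, hc]⟩
      have heq := Finset.eq_of_subset_of_card_le hsub (hcardfib.trans_le (Nat.le_of_dvd hpos h0))
      have : c * u ∈ s := by rw [heq]; simp [mul_pow, hu]
      exact (Finset.mem_filter.1 this).1
    refine ⟨hfull, ?_⟩
    by_contra hnone
    push Not at hnone
    have h1T : (1 : C) ∉ T b := fun h => by
      obtain ⟨g, hg, hgb⟩ := (hTmem b 1).1 h
      rw [one_smul] at hgb
      exact hb (smul_left_cancel g (hgb.trans (mem_stabilizer_iff.1 hg).symm))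
    have hTr : ∀ c ∈ T b, c ^ r ≠ 1 := fun c hc h => h1T (hnone c hc h ▸ hc)
    obtain ⟨u, hu, hu1⟩ : ∃ u : C, u ^ r = 1 ∧ u ≠ 1 := by
      obtain ⟨u, hu⟩ := exists_prime_orderOf_dvd_card' r (hcard ▸ hrn)
      refine ⟨u, hu ▸ pow_orderOf_eq_one u, fun h => hr.ne_one ?_⟩
      rw [← hu, h, orderOf_one]
    -- points with the same neighbours
    let R : Setoid Ω := Setoid.ker A
    have hR : ∀ (g : G) x y, R x y → R (g • x) (g • y) := by
      intro g x y (h : A x = A y)
      show A (g • x) = A (g • y)
      funext z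
      rw [← smul_inv_smul g z, hinv, hinv, h]
    have hRa : R a (u • a) := by
      show A a = A (u • a)
      funext z
      obtain ⟨e, rfl⟩ := he.2 z
      rw [hA, Matrix.sum_apply, Matrix.sum_apply]
      have h1 : ∀ c d : C, M c (d • a) (e • a) = if c * d = e then 1 else 0 := fun c d =>
        if_congr (by rw [← mul_smul, he.1.eq_iff]) rfl rfl
      have h2 : ∀ c, M c a (e • a) = if c = e then 1 else 0 := fun c =>
        if_congr he.1.eq_iff rfl rfl
      simp only [h1, h2, Finset.sum_ite_eq', ← eq_mul_inv_iff_mul_eq]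
      refine if_congr ⟨fun h => ?_, fun h => ?_⟩ rfl rfl
      · exact hfull e h (hTr e h) u⁻¹ (by rw [inv_pow, hu, inv_one])
      · simpa using hfull _ h (hTr _ h) u hu
    rcases setoid_eq_bot_or_top R hR with h | h
    · rw [h] at hRa
      exact hu1 (he.1 (hRa.symm.trans (one_smul C a).symm))
    · have hab : R a b := by rw [h]; trivial
      have h1 : A a b = 1 := by rw [hAentry, if_pos ⟨1, one_smul _ _, one_smul _ _⟩]
      have h2 : A b b = 1 := (congrFun (hab : A a = A b) b).symm.trans h1
      rw [hAentry] at h2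
      split_ifs at h2 with h3
      · obtain ⟨g, h4, h5⟩ := h3
        exact hb (smul_left_cancel g (h5.trans h4.symm))
      · exact zero_ne_one h2
  have hstep : ∀ b c, b ≠ a → c ≠ a → ∃ g ∈ stabilizer G a, g • b = c := by
    intro b c hb hc
    obtain ⟨x, hx, hxq, hx1⟩ := (key hq hqn b hb).2
    obtain ⟨y, hy, hyp, hy1⟩ := (key hp hpn c hc).2
    have hne : ∀ {z : C}, z ≠ 1 → ∀ {r s : ℕ}, r.Prime → s.Prime → r ≠ s → z ^ r = 1 →
        z ^ s ≠ 1 := by
      intro z hz r s hr hs hrs h1 h2
      refine hz ?_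
      have h := pow_gcd_eq_one.2 ⟨h1, h2⟩
      rwa [(Nat.coprime_primes hr hs).2 hrs, pow_one] at h
    have h1 := (key hp hpn b hb).1 x hx (hne hx1 hq hp hpq.symm hxq) y hyp
    have h2 := (key hq hqn c hc).1 y hy (hne hy1 hp hq hpq hyp) x hxq
    rw [mul_comm] at h2
    obtain ⟨g, hg, hgb⟩ := (hTmem _ _).1 h1
    obtain ⟨g', hg', hgc⟩ := (hTmem _ _).1 h2
    refine ⟨g'⁻¹ * g, Subgroup.mul_mem _ (Subgroup.inv_mem _ hg') hg, ?_⟩
    rw [mul_smul, hgb, ← hgc, inv_smul_smul]
  refine (SubMulAction.ofStabilizer.isMultiplyPretransitive (G := G) (n := 1) (a := a)).2 ?_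
  refine is_one_pretransitive_iff.2 ⟨fun x y => ?_⟩
  obtain ⟨g, hg, hgx⟩ := hstep x.1 y.1 x.2 y.2
  exact ⟨⟨g, hg⟩, Subtype.ext hgx⟩

end Cfsg.Agent.H80
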