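import Cfsg.Agent.H80.PrimitiveNormal

/-!
Blocks against Jordan sets in groups all of whose non-trivial normal subgroups are transitive.
-/

open MulAction
open scoped Pointwise

namespace Cfsg.Agent.H80

variable {G Ω : Type*} [Group G] [MulAction G Ω]

/-- The pointwise stabiliser of a set moves the set only along translates meeting that set. -/
theorem smul_block_eq_self {B : Set Ω} (hB : IsBlock G B) {g : G} {x : Ω} (hx : x ∈ B)
    (hgx : g • x = x) : g • B = B := by
  by_contra hne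
  have hd := hB (g₁ := g) (g₂ := 1) (by rwa [one_smul])
  rw [one_smul] at hd
  exact Set.disjoint_left.1 hd ⟨x, hx, hgx⟩ hx

/-- A block meets a Jordan set trivially, contains it, or lies inside it. -/
theorem block_jordan_cases {Γ B : Set Ω} (hB : IsBlock G B)
    (hJ : IsPretransitive (fixingSubgroup G Γᶜ) (SubMulAction.ofFixingSubgroup G Γᶜ)) :
    B ∩ Γ = ∅ ∨ Γ ⊆ B ∨ B ⊆ Γ := by
  by_contra h
  push Not at h
  obtain ⟨⟨γ, hγB, hγ⟩, hΓB, hBΓ⟩ := h
  obtain ⟨δ, hδB, hδ⟩ := Set.not_subset.1 hBΓ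
  refine hΓB fun y hy => ?_
  have mem : ∀ {z : Ω}, z ∈ Γ → z ∈ SubMulAction.ofFixingSubgroup G Γᶜ := fun hz h => h hz
  obtain ⟨k, hk⟩ := hJ.exists_smul_eq ⟨γ, mem hγ⟩ ⟨y, mem hy⟩
  have hkB : k.1 • B = B :=
    smul_block_eq_self hB hδB ((mem_fixingSubgroup_iff G).1 k.2 δ hδ)
  exact hkB ▸ ⟨γ, hγB, congrArg Subtype.val hk⟩

/-- If every non-trivial normal subgroup is transitive, a block containing a non-trivial Jordan
set is the whole set. -/
theorem block_eq_univ_of_jordan_subset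
    (hqp : ∀ N : Subgroup G, N.Normal → N ≠ ⊥ → IsPretransitive N Ω)
    {Γ B : Set Ω} (hB : IsBlock G B) (hΓ : Γ.Nontrivial) (hsub : Γ ⊆ B)
    (hJ : IsPretransitive (fixingSubgroup G Γᶜ) (SubMulAction.ofFixingSubgroup G Γᶜ)) :
    B = Set.univ := by
  let K : Subgroup G :=
    { carrier := {g | ∀ x : G, g • x • B = x • B}
      one_mem' := fun x => one_smul G _
      mul_mem' := fun {g h} hg hh x => by rw [mul_smul, hh x, hg x]
      inv_mem' := fun {g} hg x => by rw [inv_smul_eq_iff]; exact (hg x).symm }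
  have hKn : K.Normal := ⟨fun g hg c x => by
    show (c * g * c⁻¹) • x • B = x • B
    rw [mul_smul, mul_smul, smul_smul c⁻¹ x, hg (c⁻¹ * x), mul_smul, smul_inv_smul]⟩
  have hfix : ∀ k ∈ fixingSubgroup G Γᶜ, k ∈ K := by
    intro k hk x
    by_cases hxB : x • B = B
    · rw [hxB]
      by_contra hne
      have hd := hB (g₁ := k) (g₂ := 1) (by rwa [one_smul])
      rw [one_smul] at hd
      obtain ⟨γ, hγ⟩ := hΓ.nonempty
      have hmem : k • γ ∈ Γ := by
        by_contra hout
        have h1 := (mem_fixingSubgroup_iff G).1 ((fixingSubgroup G Γᶜ).inv_mem hk) (k • γ) hout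
        rw [inv_smul_smul] at h1
        exact hout (h1 ▸ hγ)
      exact Set.disjoint_left.1 hd ⟨γ, hsub hγ, rfl⟩ (hsub hmem)
    · have hd := hB (g₁ := x) (g₂ := 1) (by rwa [one_smul])
      rw [one_smul] at hd
      have hall : ∀ y ∈ x • B, k • y = y := fun y hy =>
        (mem_fixingSubgroup_iff G).1 hk y fun h => Set.disjoint_left.1 hd hy (hsub h)
      ext y
      refine ⟨?_, fun hy => ⟨y, hy, hall y hy⟩⟩
      rintro ⟨z, hz, rfl⟩
      show k • z ∈ x • B
      rw [hall z hz]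
      exact hz
  obtain ⟨a, ha, b, hb, hab⟩ := hΓ
  obtain ⟨k, hk⟩ := hJ.exists_smul_eq ⟨a, fun h => h ha⟩ ⟨b, fun h => h hb⟩
  have hK : K ≠ ⊥ := by
    intro h
    have h1 := hfix k.1 k.2
    rw [h, Subgroup.mem_bot] at h1
    have h2 : k.1 • a = b := congrArg Subtype.val hk
    rw [h1, one_smul] at h2
    exact hab h2
  refine Set.eq_univ_of_forall fun y => ?_
  obtain ⟨g, rfl⟩ := (hqp K hKn hK).exists_smul_eq a y
  have h3 := g.2 1
  rw [one_smul] at h3
  exact h3 ▸ ⟨a, hsub ha, rfl⟩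

end Cfsg.Agent.H80
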