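import Cfsg.Agent.H80.Marggraff
import Cfsg.Agent.H80.JordanSets

/-!
A group all of whose non-trivial normal subgroups are transitive, with a Jordan set of more than
one and fewer than half the points, induces every even permutation.
-/

open Equiv MulAction
open scoped Pointwise

namespace Cfsg.Agent.H80

universe w v

/-- A product of two three-cycles with two common points. -/
theorem three_cycle_mul_three_cycle {α : Type*} [DecidableEq α] {u v p q : α} (huv : u ≠ v)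
    (hup : u ≠ p) (huq : u ≠ q) (hvp : v ≠ p) (hvq : v ≠ q) (hpq : p ≠ q) :
    swap v p * swap v q * (swap u p * swap u q)⁻¹ = swap u q * swap u v := by
  rw [mul_inv_rev, Equiv.swap_inv, Equiv.swap_inv]
  ext w
  simp only [Perm.mul_apply]
  by_cases hu : w = u
  · subst hu; simp [swap_apply_of_ne_of_ne, hup, huq, huv, hvp, hvq, hpq, huv.symm, hup.symm,
      huq.symm, hvp.symm, hvq.symm, hpq.symm]
  by_cases hv : w = v
  · subst hv; simp [swap_apply_of_ne_of_ne, hup, huq, huv, hvp, hvq, hpq, huv.symm, hup.symm,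
      huq.symm, hvp.symm, hvq.symm, hpq.symm]
  by_cases hp : w = p
  · subst hp; simp [swap_apply_of_ne_of_ne, hup, huq, huv, hvp, hvq, hpq, huv.symm, hup.symm,
      huq.symm, hvp.symm, hvq.symm, hpq.symm]
  by_cases hq : w = q
  · subst hq; simp [swap_apply_of_ne_of_ne, hup, huq, huv, hvp, hvq, hpq, huv.symm, hup.symm,
      huq.symm, hvp.symm, hvq.symm, hpq.symm]
  simp [swap_apply_of_ne_of_ne, hu, hv, hp, hq]

/-- A subgroup normalised by all even permutations and holding a three-cycle holds all even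
permutations. -/
theorem alternatingGroup_le_of_conj_threeCycle {α : Type*} [Fintype α] [DecidableEq α]
    (Q : Subgroup (Perm α)) (hQ : ∀ σ ∈ alternatingGroup α, ∀ c ∈ Q, σ * c * σ⁻¹ ∈ Q)
    {x y z : α} (hxy : x ≠ y) (hxz : x ≠ z) (hyz : y ≠ z) (hc : swap x y * swap x z ∈ Q) :
    alternatingGroup α ≤ Q := by
  rw [← Equiv.Perm.closure_three_cycles_eq_alternating, Subgroup.closure_le]
  intro d hd
  obtain ⟨σ, hσ⟩ := isConj_iff.1 (Equiv.Perm.isConj_iff_cycleType_eq.2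
    ((Equiv.Perm.isThreeCycle_swap_mul_swap_same hxy hxz hyz).trans hd.symm))
  rcases Int.units_eq_one_or (Perm.sign σ) with h | h
  · exact hσ ▸ hQ σ h _ hc
  · have h1 : σ * swap x y ∈ alternatingGroup α := by
      simp [Equiv.Perm.mem_alternatingGroup, h, hxy]
    have h2 := hQ _ h1 _ (Q.inv_mem hc)
    rw [mul_inv_rev, mul_inv_rev, Equiv.swap_inv, Equiv.swap_inv] at h2
    rw [← hσ]
    simp only [mul_assoc, Equiv.swap_mul_self_mul, SetLike.mem_coe] at h2 ⊢
    exact h2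

variable {G : Type w} [Group G] [Finite G]

/-- The induction behind the recognition by a small Jordan set. -/
theorem alternatingGroup_le_range_of_quasiprimitive_jordan :
    ∀ (n : ℕ) {Ω : Type v} [MulAction G Ω] [FaithfulSMul G Ω] [Fintype Ω] [DecidableEq Ω],
      Fintype.card Ω = n →
      (∀ N : Subgroup G, N.Normal → N ≠ ⊥ → IsPretransitive N Ω) →
      ∀ Γ : Set Ω, 1 < Γ.ncard → 2 * Γ.ncard < n →
      IsPretransitive (fixingSubgroup G Γᶜ) (SubMulAction.ofFixingSubgroup G Γᶜ) →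
      alternatingGroup Ω ≤ (MulAction.toPermHom G Ω).range := by
  intro n
  induction n using Nat.strong_induction_on with
  | _ n ih =>
  intro Ω _ _ _ _ hn hqp Γ h1 h2 hJ
  classical
  have mem : ∀ {z : Ω}, z ∈ Γ → z ∈ SubMulAction.ofFixingSubgroup G Γᶜ := fun hz h => h hz
  have hmove : ∀ x ∈ Γ, ∀ y ∈ Γ, ∃ g : G, (∀ z ∉ Γ, g • z = z) ∧ g • x = y := by
    intro x hx y hy
    obtain ⟨k, hk⟩ := hJ.exists_smul_eq ⟨x, mem hx⟩ ⟨y, mem hy⟩
    exact ⟨k.1, fun z hz => (mem_fixingSubgroup_iff G).1 k.2 z hz, congrArg Subtype.val hk⟩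
  have hΓnt : Γ.Nontrivial := (Set.one_lt_ncard_iff_nontrivial (s := Γ)).1 h1
  obtain ⟨γ₀, hγ₀, γ₁, hγ₁, hγ⟩ := hΓnt
  have hGnt : (⊤ : Subgroup G) ≠ ⊥ := by
    obtain ⟨g, -, hg⟩ := hmove γ₀ hγ₀ γ₁ hγ₁
    intro h
    have := Subgroup.mem_bot.1 (h ▸ Subgroup.mem_top g)
    rw [this, one_smul] at hg
    exact hγ hg
  haveI : IsPretransitive G Ω := ⟨fun x y => by
    obtain ⟨g, hg⟩ := (hqp ⊤ inferInstance hGnt).exists_smul_eq x y
    exact ⟨g.1, hg⟩⟩
  by_cases hprim : IsPreprimitive G Ω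
  · let φ := MulAction.toPermHom G Ω
    let f : Ω →ₑ[φ.rangeRestrict] Ω := { toFun := id, map_smul' := fun _ _ => rfl }
    refine alternatingGroup_le_of_jordan_lt_half n φ.range hn
      (IsPreprimitive.of_surjective (f := f) (fun x => ⟨x, rfl⟩)) Γ.toFinset
      (by rw [← Set.ncard_eq_toFinset_card']; omega) (by rw [← Set.ncard_eq_toFinset_card']; omega)
      ?_
    intro x hx y hy
    obtain ⟨g, hfix, hgx⟩ := hmove x (by simpa using hx) y (by simpa using hy)
    exact ⟨φ g, ⟨g, rfl⟩, fun z hz => hfix z (by simpa using hz), hgx⟩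
  exfalso
  obtain ⟨B₀, hB₀, hB₀t⟩ : ∃ B : Set Ω, IsBlock G B ∧ ¬ IsTrivialBlock B := by
    by_contra h
    push Not at h
    exact hprim { isTrivialBlock_of_isBlock := fun {B} hB => h B hB }
  rw [IsTrivialBlock, not_or, Set.not_subsingleton_iff] at hB₀t
  obtain ⟨b₀, hb₀, -, -, -⟩ := hB₀t.1
  obtain ⟨g₀, hg₀⟩ := exists_smul_eq G b₀ γ₀
  set B := g₀ • B₀ with hBdef
  have hB : IsBlock G B := hB₀.translate g₀
  have hγB : γ₀ ∈ B := ⟨b₀, hb₀, hg₀⟩
  have hBne : B ≠ Set.univ := fun h => hB₀t.2 (by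
    rw [← inv_smul_smul g₀ B₀, ← hBdef, h, Set.smul_set_univ])
  -- every translate of `B` lies inside `Γ` or misses it
  have hcases : ∀ g : G, g • B ⊆ Γ ∨ ∀ x ∈ g • B, x ∉ Γ := by
    intro g
    rcases block_jordan_cases (hB.translate g) hJ with h | h | h
    · exact Or.inr fun x hx hxΓ => (Set.eq_empty_iff_forall_notMem.1 h x) ⟨hx, hxΓ⟩
    · refine absurd (block_eq_univ_of_jordan_subset hqp (hB.translate g)
        ⟨γ₀, hγ₀, γ₁, hγ₁, hγ⟩ h hJ) fun h' => hBne ?_
      rw [← inv_smul_smul g B, h', Set.smul_set_univ]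
    · exact Or.inl h
  let Ω' : Type v := ↥(orbit G B)
  haveI : Fintype Ω' := Fintype.ofFinite _
  let B' : Ω' := ⟨B, mem_orbit_self B⟩
  have hblk : ∀ C : Ω', IsBlock G C.1 := fun ⟨_, g, hg⟩ => hg ▸ hB.translate g
  have hneC : ∀ C : Ω', C.1.Nonempty := fun ⟨_, g, hg⟩ => hg ▸ (Set.Nonempty.smul_set ⟨γ₀, hγB⟩)
  have huniq : ∀ C D : Ω', ∀ x, x ∈ C.1 → x ∈ D.1 → C = D := by
    rintro ⟨_, g, rfl⟩ ⟨_, g', rfl⟩ x hx hx'
    refine Subtype.ext ?_
    by_contra h
    exact Set.disjoint_left.1 (hB h) hx hx'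
  have hcov : ∀ x : Ω, ∃ C : Ω', x ∈ C.1 := fun x => by
    obtain ⟨g, hg⟩ := exists_smul_eq G γ₀ x
    exact ⟨⟨g • B, g, rfl⟩, γ₀, hγB, hg⟩
  choose π hπ using hcov
  have hπeq : ∀ C : Ω', ∀ x ∈ C.1, π x = C := fun C x hx => huniq _ _ x (hπ x) hx
  have hπg : ∀ (g : G) x, π (g • x) = g • π x := fun g x =>
    hπeq _ _ (Set.smul_mem_smul_set (hπ x))
  set b := B.ncard with hbdef
  have hbc : ∀ C : Ω', C.1.ncard = b := by
    rintro ⟨_, g, rfl⟩
    exact Set.ncard_image_of_injective B (MulAction.injective g)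
  have hb2 : 2 ≤ b := by
    have h' : B₀.ncard = b := (Set.ncard_image_of_injective B₀ (MulAction.injective g₀)).symm
    have := (Set.one_lt_ncard_iff_nontrivial (s := B₀)).2 hB₀t.1
    omega
  let Γ' : Set Ω' := {C | C.1 ⊆ Γ}
  have hΓπ : ∀ x, x ∈ Γ ↔ π x ∈ Γ' := fun x => by
    refine ⟨fun hx => ?_, fun h => h (hπ x)⟩
    obtain ⟨g, hg⟩ := (π x).2
    have hg' : g • B = (π x).1 := hg
    rcases hcases g with h | h
    · show (π x).1 ⊆ Γ
      rw [← hg']; exact h
    · exact absurd hx (h x (hg' ▸ hπ x))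
  have hfib : ∀ s : Finset Ω', (Finset.univ.filter fun x => π x ∈ s).card = b * s.card := by
    intro s
    rw [Finset.card_eq_sum_card_fiberwise (f := π) (t := s) (fun x hx => by simpa using hx),
      mul_comm, ← smul_eq_mul, ← Finset.sum_const]
    refine Finset.sum_congr rfl fun C hC => ?_
    rw [← hbc C, Set.ncard_eq_toFinset_card']
    congr 1
    ext x
    simp only [Finset.mem_filter, Finset.mem_univ, true_and, Set.mem_toFinset]
    exact ⟨fun h => h.2 ▸ hπ x, fun h => ⟨hπeq C x h ▸ hC, hπeq C x h⟩⟩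
  have hna : n = b * Fintype.card Ω' := by
    rw [← hn, ← Finset.card_univ (α := Ω'), ← hfib]; simp [Finset.card_univ]
  have hΓc : Γ.ncard = b * Γ'.ncard := by
    rw [Set.ncard_eq_toFinset_card', Set.ncard_eq_toFinset_card', ← hfib]
    congr 1
    ext x
    simpa using hΓπ x
  have hΓ'1 : 1 < Γ'.ncard := by
    by_contra h
    have hBΓ : B ⊆ Γ := (hΓπ γ₀).1 hγ₀ |> fun h' => by
      rw [hπeq B' γ₀ hγB] at h'; exact h'
    have hle : Γ.ncard ≤ B.ncard := by
      rw [hΓc, ← hbdef]; exact (Nat.mul_le_mul_left b (not_lt.1 h)).trans (mul_one b).le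
    exact hBne (block_eq_univ_of_jordan_subset hqp hB ⟨γ₀, hγ₀, γ₁, hγ₁, hγ⟩
      (Set.eq_of_subset_of_ncard_le hBΓ hle).ge hJ)
  have hΓ'2 : 2 * Γ'.ncard < Fintype.card Ω' := by
    by_contra h
    have := Nat.mul_le_mul_left b (not_lt.1 h)
    rw [← hna, Nat.mul_left_comm, ← hΓc] at this
    omega
  have hlt : Fintype.card Ω' < n := by
    have : 2 * Fintype.card Ω' ≤ n := hna ▸ Nat.mul_le_mul_right _ hb2
    omega
  let K : Subgroup G := (MulAction.toPermHom G Ω').ker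
  have hK : K = ⊥ := by
    by_contra h
    refine hBne (Set.eq_univ_of_forall fun y => ?_)
    obtain ⟨k, hk⟩ := (hqp K inferInstance h).exists_smul_eq γ₀ y
    have h3 : k.1 • B' = B' := congrArg (fun p : Perm Ω' => p B') k.2
    have h4 : k.1 • B = B := congrArg Subtype.val h3
    exact h4 ▸ ⟨γ₀, hγB, hk⟩
  haveI : FaithfulSMul G Ω' := ⟨fun {g h} hgh => by
    have : g⁻¹ * h ∈ K := Equiv.ext fun C => by
      show (g⁻¹ * h) • C = C
      rw [mul_smul, ← hgh C, inv_smul_smul]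
    rw [hK, Subgroup.mem_bot, inv_mul_eq_one] at this
    exact this⟩
  have hqp' : ∀ N : Subgroup G, N.Normal → N ≠ ⊥ → IsPretransitive N Ω' := by
    intro N hN hN'
    refine ⟨fun C D => ?_⟩
    obtain ⟨x, hx⟩ := hneC C
    obtain ⟨y, hy⟩ := hneC D
    obtain ⟨g, hg⟩ := (hqp N hN hN').exists_smul_eq x y
    refine ⟨g, ?_⟩
    show g.1 • C = D
    rw [← hπeq C x hx, ← hπg, show g.1 • x = y from hg, hπeq D y hy]
  have hmove' : ∀ C ∈ Γ', ∀ D ∈ Γ', ∃ g : G,
      (∀ z ∉ Γ, g • z = z) ∧ (∀ E ∉ Γ', g • E = E) ∧ g • C = D := by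
    intro C hC D hD
    obtain ⟨x, hx⟩ := hneC C
    obtain ⟨y, hy⟩ := hneC D
    obtain ⟨g, hfix, hgx⟩ := hmove x (hC hx) y (hD hy)
    refine ⟨g, hfix, fun E hE => ?_, ?_⟩
    · obtain ⟨z, hz⟩ := hneC E
      have hzΓ : z ∉ Γ := fun h => hE (hπeq E z hz ▸ (hΓπ z).1 h)
      rw [← hπeq E z hz, ← hπg, hfix z hzΓ]
    · rw [← hπeq C x hx, ← hπg, hgx, hπeq D y hy]
  have hAlt := ih _ hlt (Ω := Ω') rfl hqp' Γ' hΓ'1 hΓ'2 ⟨fun C D => by
    obtain ⟨g, -, hfix, hgC⟩ := hmove' C.1 (not_not.1 C.2) D.1 (not_not.1 D.2)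
    exact ⟨⟨g, (mem_fixingSubgroup_iff G).2 fun E hE => hfix E hE⟩, Subtype.ext hgC⟩⟩
  set φ := MulAction.toPermHom G Ω' with hφ
  -- a translate `C` of `B` outside `Γ'` and two more such
  have hbig : 2 < (Finset.univ.filter fun C : Ω' => C ∉ Γ').card := by
    rw [show (Finset.univ.filter fun C : Ω' => C ∉ Γ') = (Γ'.toFinset)ᶜ by ext; simp,
      Finset.card_compl, ← Set.ncard_eq_toFinset_card']
    omega
  obtain ⟨C, p, q, hC, hp, hq, hCp, hCq, hpq⟩ := Finset.two_lt_card_iff.1 hbig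
  simp only [Finset.mem_filter, Finset.mem_univ, true_and] at hC hp hq
  have hCΓ : ∀ z ∈ C.1, z ∉ Γ := fun z hz h => hC (hπeq C z hz ▸ (hΓπ z).1 h)
  obtain ⟨u, hu, v, hv, huv⟩ := (Set.one_lt_ncard_iff_nontrivial (s := Γ')).1 hΓ'1
  obtain ⟨k, hkfix, hkE, hku⟩ := hmove' u hu v hv
  let Q : Subgroup (Perm {D : Ω' // D ≠ C}) :=
    ((fixingSubgroup G C.1).map φ).comap Perm.ofSubtype
  have hQc : ∀ σ ∈ alternatingGroup {D : Ω' // D ≠ C}, ∀ c ∈ Q, σ * c * σ⁻¹ ∈ Q := by
    rintro σ hσ c ⟨h, hh, hhc⟩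
    obtain ⟨g, hg⟩ := hAlt (show Perm.ofSubtype σ ∈ alternatingGroup Ω' by
      rw [Perm.mem_alternatingGroup, Perm.sign_ofSubtype]; exact hσ)
    have hgC : g • C = C := by
      have := congrArg (fun f : Perm Ω' => f C) hg
      rwa [Perm.ofSubtype_apply_of_not_mem σ (not_not.2 rfl)] at this
    refine ⟨g * h * g⁻¹, ?_, ?_⟩
    · refine (mem_fixingSubgroup_iff G).2 fun z hz => ?_
      have hz' : g⁻¹ • z ∈ C.1 := by
        rw [← Set.mem_smul_set_iff_inv_smul_mem]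
        rw [show g • C.1 = C.1 from congrArg Subtype.val hgC]
        exact hz
      rw [mul_smul, mul_smul, (mem_fixingSubgroup_iff G).1 hh _ hz', smul_inv_smul]
    · rw [map_mul, map_mul, map_inv, hg, hhc, map_mul, map_mul, map_inv]
  have hne : ∀ {D : Ω'}, D ∈ Γ' → D ≠ C := fun hD h => hC (h ▸ hD)
  have hs : swap u p * swap u q ∈ alternatingGroup Ω' := by
    simp [Perm.mem_alternatingGroup, (show u ≠ p from fun h => hp (h ▸ hu)),
      (show u ≠ q from fun h => hq (h ▸ hu))]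
  obtain ⟨g, hg⟩ := hAlt hs
  have hgC : g • C = C := by
    have := congrArg (fun f : Perm Ω' => f C) hg
    simp only [Perm.mul_apply, swap_apply_of_ne_of_ne (hne hu).symm hCq,
      swap_apply_of_ne_of_ne (hne hu).symm hCp] at this
    exact this
  have hup : u ≠ p := fun h => hp (h ▸ hu)
  have huq : u ≠ q := fun h => hq (h ▸ hu)
  have hvp : v ≠ p := fun h => hp (h ▸ hv)
  have hvq : v ≠ q := fun h => hq (h ▸ hv)
  have hcQ : swap (⟨u, hne hu⟩ : {D : Ω' // D ≠ C}) ⟨q, hCq.symm⟩ *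
      swap ⟨u, hne hu⟩ ⟨v, hne hv⟩ ∈ Q := by
    refine ⟨k * g * k⁻¹ * g⁻¹, ?_, ?_⟩
    · refine (mem_fixingSubgroup_iff G).2 fun z hz => ?_
      have hz' : g⁻¹ • z ∈ C.1 := by
        rw [← Set.mem_smul_set_iff_inv_smul_mem]
        rw [show g • C.1 = C.1 from congrArg Subtype.val hgC]
        exact hz
      rw [mul_smul, mul_smul, mul_smul,
        inv_smul_eq_iff.2 (hkfix _ (hCΓ _ hz')).symm, smul_inv_smul, hkfix z (hCΓ z hz)]
    · rw [map_mul, map_mul, map_mul, map_inv, map_inv, hg, ← conj_mul,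
        ← Equiv.swap_apply_apply, ← Equiv.swap_apply_apply, show φ k u = v from hku,
        show φ k p = p from hkE p hp, show φ k q = q from hkE q hq,
        three_cycle_mul_three_cycle huv hup huq hvp hvq hpq, map_mul, Perm.ofSubtype_swap_eq,
        Perm.ofSubtype_swap_eq]
  have hQ := alternatingGroup_le_of_conj_threeCycle Q hQc
    (fun h => huq (congrArg Subtype.val h)) (fun h => huv (congrArg Subtype.val h))
    (fun h => hvq (congrArg Subtype.val h).symm) hcQ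
  -- the even part of the stabiliser of `C` fixes `C` pointwise
  let R : Subgroup G := (alternatingGroup Ω').comap φ
  have hR : R ≠ ⊥ := by
    intro h
    have h1 : g ∈ R := by show φ g ∈ alternatingGroup Ω'; rw [hg]; exact hs
    rw [h, Subgroup.mem_bot] at h1
    rw [h1, map_one] at hg
    have := congrArg (fun f : Perm Ω' => f q) hg
    simp [hpq.symm] at this
  obtain ⟨x, hx, y, hy, hxy⟩ := (Set.one_lt_ncard_iff_nontrivial (s := C.1)).1
    (by rw [hbc C]; omega)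
  obtain ⟨r, hr⟩ := (hqp R inferInstance hR).exists_smul_eq x y
  have hrC : r.1 • C = C := by
    rw [← hπeq C x hx, ← hπg, show r.1 • x = y from hr, hπeq C y hy, hπeq C x hx]
  have hiff : ∀ D : Ω', φ r.1 D ≠ C ↔ D ≠ C := fun D =>
    not_congr ⟨fun h => (φ r.1).injective (h.trans hrC.symm), fun h => h ▸ hrC⟩
  have heven : Perm.sign ((φ r.1).subtypePerm (p := fun D => D ≠ C) hiff) = 1 := by
    rw [Perm.sign_subtypePerm (p := fun D => D ≠ C) _ _ (fun D hD (h : D = C) => hD (h.symm ▸ hrC))]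
    exact r.2
  obtain ⟨h, hh, hhr⟩ := hQ heven
  rw [Perm.ofSubtype_subtypePerm (p := fun D => D ≠ C) _ (fun D hD (h : D = C) => hD (h.symm ▸ hrC))] at hhr
  have hsm : ∀ D : Ω', h • D = r.1 • D := fun D => by
    have e := congrArg (fun f : Perm Ω' => f D) hhr
    simp only [hφ, MulAction.toPermHom_apply, MulAction.toPerm_apply] at e
    exact e
  have : h = r.1 := FaithfulSMul.eq_of_smul_eq_smul hsm
  exact hxy (((mem_fixingSubgroup_iff G).1 hh x hx).symm.trans (this ▸ hr))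

end Cfsg.Agent.H80
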