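import Cfsg.Agent.H80.PrimeOrderPerms

/-!
Permutations of prime order fixing partitions into parts of one size.
-/

open Equiv Finset

namespace Cfsg.Agent.H80

/-- Necessity: the parts fixed by a permutation of order `r` hold few cycles each. -/
theorem exists_bounds_of_fixed_partition {r a b n : ℕ} (hr : r.Prime) {σ : Perm (Fin n)}
    (hσ : orderOf σ = r) {f : Fin n → Fin b} (ha : 1 ≤ a)
    (hf : ∀ j, Nat.card {x // f x = j} = a) {π : Perm (Fin b)} (hπ : ∀ x, f (σ x) = π (f x))
    {c : ℕ} (hc : σ.support.card = r * c) :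
    ∃ t, r * t ≤ b ∧ t * a ≤ c ∧ c + t * (r * (a / r)) ≤ b * (a / r) + t * a := by
  haveI := Fact.mk hr
  have hfib : ∀ j, (univ.filter fun x => f x = j).card = a := fun j => by
    rw [← hf j, Nat.card_eq_fintype_card, Fintype.card_subtype]
  have hpow : π ^ r ^ 1 = 1 := by
    rw [pow_one]
    refine Equiv.ext fun j => ?_
    obtain ⟨x, hx⟩ := card_pos.1 (by rw [hfib j]; omega : 0 < (univ.filter fun x => f x = j).card)
    have hk : ∀ k, f ((σ ^ k) x) = (π ^ k) (f x) := by
      intro k
      induction k with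
      | zero => rfl
      | succ k ih => rw [pow_succ', pow_succ', Perm.mul_apply, hπ, ih, Perm.mul_apply]
    have h1 := hk r
    rw [(orderOf_dvd_iff_pow_eq_one.1 hσ.dvd), Perm.one_apply, (mem_filter.1 hx).2] at h1
    exact h1.symm
  have hmod := Equiv.Perm.card_compl_support_modEq hpow
  rw [card_compl, Fintype.card_fin] at hmod
  have hleb : π.support.card ≤ b := by simpa using π.support.card_le_univ
  obtain ⟨t, ht⟩ : r ∣ π.support.card := by
    have h := (Nat.modEq_iff_dvd' (Nat.sub_le b _)).1 hmod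
    rwa [Nat.sub_sub_self hleb] at h
  have hsum : σ.support.card = ∑ j, (σ.support.filter fun x => f x = j).card :=
    card_eq_sum_card_fiberwise fun x _ => mem_univ _
  rw [← sum_add_sum_compl π.support] at hsum
  have hmoved : ∀ j ∈ π.support, (σ.support.filter fun x => f x = j).card = a := by
    intro j hj
    rw [← hfib j]
    congr 1
    ext x
    simp only [mem_filter, mem_univ, true_and, and_iff_right_iff_imp]
    intro hx
    refine Perm.mem_support.2 fun h => Perm.mem_support.1 hj ?_
    rw [← hx, ← hπ, h]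
  have hfixed : ∀ j ∈ π.supportᶜ,
      (σ.support.filter fun x => f x = j).card ≤ r * (a / r) := by
    intro j hj
    have hinv : (univ.filter fun x => f x = j).image σ = univ.filter fun x => f x = j := by
      refine eq_of_subset_of_card_le ?_ (by rw [card_image_of_injective _ σ.injective])
      intro y hy
      obtain ⟨x, hx, rfl⟩ := mem_image.1 hy
      simp only [mem_filter, mem_univ, true_and] at hx ⊢
      rw [hπ, hx]
      exact Perm.notMem_support.1 (mem_compl.1 hj)
    obtain ⟨i, hi⟩ := dvd_card_inter_support hr hσ hinv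
    have he : σ.support.filter (fun x => f x = j) =
        (univ.filter fun x => f x = j) ∩ σ.support := by ext x; simp [and_comm]
    rw [he, hi]
    refine Nat.mul_le_mul_left r ((Nat.le_div_iff_mul_le hr.pos).2 ?_)
    rw [mul_comm, ← hi]
    exact (card_le_card inter_subset_left).trans (hfib j).le
  rw [sum_const_nat hmoved, hc, ht] at hsum
  have hle : (∑ j ∈ π.supportᶜ, (σ.support.filter fun x => f x = j).card) ≤
      (b - r * t) * (r * (a / r)) := by
    refine (sum_le_card_nsmul _ _ _ hfixed).trans (le_of_eq ?_)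
    rw [card_compl, Fintype.card_fin, ht, smul_eq_mul]
  obtain ⟨d, hd⟩ := Nat.exists_eq_add_of_le (ht ▸ hleb : r * t ≤ b)
  rw [show b - r * t = d by omega] at hle
  refine ⟨t, ht ▸ hleb, Nat.le_of_mul_le_mul_left (by rw [← mul_assoc]; omega) hr.pos,
    Nat.le_of_mul_le_mul_left ?_ hr.pos⟩
  rw [hd]
  nlinarith [hsum, hle]

/-- The model: `t` orbits of moved parts and `c'` further cycles among `b'` fixed parts. -/
def modelPerm (r t a b' A L c' : ℕ) : Perm ((Fin t × ZMod r × Fin a) ⊕
    (Fin b' × (Fin A × ZMod r ⊕ Fin L))) :=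
  Equiv.sumCongr
    (Equiv.prodCongr (Equiv.refl _) (Equiv.prodCongr (Equiv.addRight 1) (Equiv.refl _)))
    (Equiv.prodShear (Equiv.refl _) fun j => Equiv.sumCongr (Equiv.prodShear (Equiv.refl _) fun q =>
      Equiv.addRight (if (finProdFinEquiv (j, q)).val < c' then (1 : ZMod r) else 0)) (Equiv.refl _))

theorem modelPerm_pow (r t a b' A L c' : ℕ) : modelPerm r t a b' A L c' ^ r = 1 := by
  have h : ∀ k : ℕ, ∀ x, (modelPerm r t a b' A L c' ^ k) x = Sum.map
      (fun p : Fin t × ZMod r × Fin a => (p.1, p.2.1 + k, p.2.2))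
      (fun p : Fin b' × (Fin A × ZMod r ⊕ Fin L) => (p.1, p.2.map (fun q => (q.1, q.2 +
        (k : ZMod r) * if (finProdFinEquiv (p.1, q.1)).val < c' then 1 else 0)) id)) x := by
    intro k
    induction k with
    | zero => rintro (⟨x, z, y⟩ | ⟨j, q | l⟩) <;> simp
    | succ k ih =>
      intro x
      rw [pow_succ', Perm.mul_apply, ih]
      rcases x with ⟨x, z, y⟩ | ⟨j, q | l⟩ <;> simp [modelPerm] <;> (try split_ifs) <;> ring
  refine Equiv.ext fun x => ?_
  rw [h]
  rcases x with ⟨x, z, y⟩ | ⟨j, q | l⟩ <;> simp [ZMod.natCast_self]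

theorem card_support_modelPerm {r : ℕ} [Fact r.Prime] (t a b' A L c' : ℕ) (hc : c' ≤ b' * A) :
    (modelPerm r t a b' A L c').support.card = r * (t * a + c') := by
  have hcount : ((univ : Finset (Fin b' × Fin A)).filter
      fun p => (finProdFinEquiv p).val < c').card = c' := by
    have h : ((univ : Finset (Fin (b' * A))).filter fun i => i.val < c').card = c' := by
      refine (card_bij' (t := range c') (fun i _ => i.val) (fun i hi =>
        ⟨i, lt_of_lt_of_le (mem_range.1 hi) hc⟩) ?_ ?_ ?_ ?_).trans (card_range c')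
      all_goals simp
    refine Eq.trans ?_ h
    exact card_equiv finProdFinEquiv (by simp)
  rw [Perm.support, card_filter, Fintype.sum_sum_type]
  simp only [Fintype.sum_prod_type, Fintype.sum_sum_type]
  have e1 : ∀ (x : Fin t) (z : ZMod r) (y : Fin a),
      modelPerm r t a b' A L c' (Sum.inl (x, z, y)) ≠ Sum.inl (x, z, y) := by
    intro x z y h
    simp [modelPerm] at h
  have e2 : ∀ (j : Fin b') (q : Fin A) (z : ZMod r),
      modelPerm r t a b' A L c' (Sum.inr (j, Sum.inl (q, z))) ≠ Sum.inr (j, Sum.inl (q, z)) ↔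
        (finProdFinEquiv (j, q)).val < c' := by
    intro j q z
    by_cases h : (finProdFinEquiv (j, q)).val < c' <;> simp_all [modelPerm]
  have e3 : ∀ (j : Fin b') (l : Fin L),
      modelPerm r t a b' A L c' (Sum.inr (j, Sum.inr l)) = Sum.inr (j, Sum.inr l) := by
    intro j l; simp [modelPerm]
  simp only [if_pos (e1 _ _ _), e2, if_neg (not_not.2 (e3 _ _)), sum_const, card_univ,
    Fintype.card_fin, ZMod.card, smul_eq_mul, mul_one, mul_zero, add_zero]
  have : (∑ j : Fin b', ∑ q : Fin A, r * if (finProdFinEquiv (j, q)).val < c' then 1 else 0) =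
      r * c' := by
    simp only [← mul_sum]
    rw [← Fintype.sum_prod_type' (f := fun j q => if (finProdFinEquiv (j, q)).val < c' then 1 else 0),
      ← card_filter, hcount]
  rw [this]
  ring

/-- Two permutations of the same prime order moving equally many points are conjugate. -/
theorem cycleType_eq_replicate_of_pow_eq_one {α : Type*} [Fintype α] [DecidableEq α] {r c : ℕ}
    [Fact r.Prime] {σ : Perm α} (h : σ ^ r = 1) (hc : σ.support.card = r * c) :
    σ.cycleType = Multiset.replicate c r := by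
  rw [Multiset.eq_replicate]
  have hall := Equiv.Perm.pow_prime_eq_one_iff.1 h
  refine ⟨?_, hall⟩
  have h1 := Equiv.Perm.sum_cycleType σ
  rw [Multiset.eq_replicate_card.2 hall, Multiset.sum_replicate, smul_eq_mul, hc, mul_comm r c] at h1
  exact Nat.eq_of_mul_eq_mul_right (Fact.out (p := r.Prime)).pos h1

/-- Sufficiency: a fixed partition exists when the cycles can be distributed. -/
theorem exists_fixed_partition {r a b n : ℕ} [Fact r.Prime] (ha : 1 ≤ a) (hn : n = a * b) {σ : Perm (Fin n)}
    (hσ : σ ^ r = 1) {c t : ℕ} (hc : σ.support.card = r * c) (ht : r * t ≤ b) (hta : t * a ≤ c)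
    (hcA : c + t * (r * (a / r)) ≤ b * (a / r) + t * a) :
    ∃ f : Fin n → Fin b, (∀ j, Nat.card {x // f x = j} = a) ∧
      ∃ π : Perm (Fin b), ∀ x, f (σ x) = π (f x) := by
  obtain ⟨b', rfl⟩ := Nat.exists_eq_add_of_le ht
  set A := a / r with hA
  set L := a % r with hL
  obtain ⟨c', rfl⟩ := Nat.exists_eq_add_of_le hta
  have hc' : c' ≤ b' * A := by nlinarith [hcA]
  have haAL : a = A * r + L := (Nat.div_add_mod' a r).symm
  let e : ((Fin t × ZMod r × Fin a) ⊕ (Fin b' × (Fin A × ZMod r ⊕ Fin L))) ≃ Fin n :=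
    Fintype.equivFinOfCardEq (by
      simp only [Fintype.card_sum, Fintype.card_prod, Fintype.card_fin, ZMod.card]
      rw [hn, ← haAL]; ring)
  let ψ : (Fin t × ZMod r) ⊕ Fin b' ≃ Fin (r * t + b') := Fintype.equivFinOfCardEq (by
    simp only [Fintype.card_sum, Fintype.card_prod, Fintype.card_fin, ZMod.card]; ring)
  set σ₀ := modelPerm r t a b' A L c'
  have hpow : (e.permCongr σ₀) ^ r = 1 := by
    rw [← Equiv.permCongrHom_coe, ← map_pow, modelPerm_pow, map_one]
  have hsupp : (e.permCongr σ₀).support.card = r * (t * a + c') := by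
    rw [← card_support_modelPerm t a b' A L c' hc']
    refine (card_equiv e fun x => ?_).symm
    simp [σ₀, Perm.mem_support]
  obtain ⟨g, hg⟩ := isConj_iff.1 (Equiv.Perm.isConj_iff_cycleType_eq.2
    ((cycleType_eq_replicate_of_pow_eq_one hpow hsupp).trans
      (cycleType_eq_replicate_of_pow_eq_one hσ hc).symm))
  let f₀ : ((Fin t × ZMod r × Fin a) ⊕ (Fin b' × (Fin A × ZMod r ⊕ Fin L))) →
      (Fin t × ZMod r) ⊕ Fin b' := Sum.map (fun p => (p.1, p.2.1)) Prod.fst
  let π₀ : Perm ((Fin t × ZMod r) ⊕ Fin b') :=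
    Equiv.sumCongr (Equiv.prodCongr (Equiv.refl _) (Equiv.addRight 1)) (Equiv.refl _)
  have hcomm : ∀ x, f₀ (σ₀ x) = π₀ (f₀ x) := by
    rintro (⟨x, z, y⟩ | ⟨j, q | l⟩) <;> simp [f₀, π₀, σ₀, modelPerm]
  have hfib : ∀ y, Nat.card {x // f₀ x = y} = a := by
    rintro (⟨x, z⟩ | j)
    · refine (Nat.card_congr (β := Fin a) ⟨fun p => Sum.elim (fun w => w.2.2)
        (fun _ => ⟨0, ha⟩) p.1, fun y => ⟨Sum.inl (x, z, y), rfl⟩, ?_, ?_⟩).trans (Nat.card_fin a)
      · rintro ⟨⟨x', z', y'⟩ | w, h⟩ <;> simp [f₀] at h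
        obtain ⟨rfl, rfl⟩ := h; rfl
      · intro y; rfl
    · have e2 : {x // f₀ x = Sum.inr j} ≃ (Fin A × ZMod r ⊕ Fin L) := (Equiv.ofBijective
        (fun w => (⟨Sum.inr (j, w), rfl⟩ : {x // f₀ x = Sum.inr j})) ⟨fun w w' h => by
          simpa using congrArg Subtype.val h, by
          rintro ⟨w | ⟨j', w⟩, h⟩ <;> simp [f₀] at h
          subst h; exact ⟨w, rfl⟩⟩).symm
      rw [Nat.card_congr e2, Nat.card_eq_fintype_card]
      simp only [Fintype.card_sum, Fintype.card_prod, Fintype.card_fin, ZMod.card]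
      exact haAL.symm
  refine ⟨fun x => ψ (f₀ (e.symm (g⁻¹ x))), fun j => ?_, ψ.permCongr π₀, fun x => ?_⟩
  · refine (Nat.card_congr (((g⁻¹).trans e.symm).subtypeEquiv fun x => ?_)).trans
      (hfib (ψ.symm j))
    simp [Equiv.eq_symm_apply]
  · rw [← hg]
    simp [hcomm]

/-- The arithmetic of distributing `c` cycles. -/
theorem forall_exists_bounds_iff {r a b : ℕ} (hr : 2 ≤ r) (ha : 2 ≤ a) (hb : 2 ≤ b)
    (hrn : r ≤ a * b) :
    (∀ c, 1 ≤ c → r * c ≤ a * b →
      ∃ t, r * t ≤ b ∧ t * a ≤ c ∧ c + t * (r * (a / r)) ≤ b * (a / r) + t * a) ↔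
    (r ≤ a ∧ (a % r = 0 ∨ (b % r * (a % r) < r ∧ (b < r ∨ a % r ≤ b % r * (a / r) + 1)))) := by
  obtain ⟨A, L, hLr, rfl⟩ : ∃ A L, L < r ∧ a = r * A + L :=
    ⟨a / r, a % r, Nat.mod_lt _ (by omega), (Nat.div_add_mod a r).symm⟩
  obtain ⟨B, K, hKr, rfl⟩ : ∃ B K, K < r ∧ b = r * B + K :=
    ⟨b / r, b % r, Nat.mod_lt _ (by omega), (Nat.div_add_mod b r).symm⟩
  have hA : (r * A + L) / r = A := by
    rw [Nat.mul_add_div (by omega), Nat.div_eq_of_lt hLr, add_zero]
  have hL : (r * A + L) % r = L := by rw [Nat.mul_add_mod, Nat.mod_eq_of_lt hLr]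
  have hK : (r * B + K) % r = K := by rw [Nat.mul_add_mod, Nat.mod_eq_of_lt hKr]
  rw [hA, hL, hK]
  have htB : ∀ t, r * t ≤ r * B + K → t ≤ B := by
    intro t h
    by_contra h'
    have := Nat.mul_le_mul_left r (not_le.1 h' : B + 1 ≤ t)
    nlinarith
  constructor
  · intro h
    have hA1 : 1 ≤ A := by
      obtain ⟨t, -, h2, h3⟩ := h 1 le_rfl (by omega)
      rcases Nat.eq_zero_or_pos A with rfl | h0
      · rcases Nat.eq_zero_or_pos t with rfl | h1
        · simp at h3
        · have := Nat.mul_le_mul_right (r * 0 + L) h1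
          omega
      · exact h0
    refine ⟨by nlinarith, ?_⟩
    by_cases hL0 : L = 0
    · exact Or.inl hL0
    refine Or.inr ⟨?_, ?_⟩
    · by_contra hKL
      obtain ⟨t, h1, h2, h3⟩ := h ((r * B + K) * A + B * L + 1) (by omega) (by nlinarith)
      have := Nat.mul_le_mul_right L (htB t h1)
      nlinarith
    · by_cases hB : B = 0
      · left; subst hB; omega
      right
      have hpos : 2 ≤ B * (r * A + L) := le_trans ha (Nat.le_mul_of_pos_left _ (by omega))
      obtain ⟨d, hd⟩ := Nat.exists_eq_add_of_le (le_trans (by omega : 1 ≤ 2) hpos)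
      obtain ⟨t, -, h2, h3⟩ := h d (by omega) (by nlinarith)
      have ht : t < B := by
        by_contra h'
        have := Nat.mul_le_mul_right (r * A + L) (not_lt.1 h')
        omega
      have := Nat.mul_le_mul_right L ht
      nlinarith
  · rintro ⟨hra, hcond⟩ c hc hcn
    have hA1 : 1 ≤ A := by
      rcases Nat.eq_zero_or_pos A with rfl | h
      · omega
      · exact h
    by_cases hcB : B * (r * A + L) ≤ c
    · refine ⟨B, Nat.le_add_right _ _, hcB, ?_⟩
      have hKL : K * L < r := by
        rcases hcond with rfl | ⟨h, -⟩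
        · simpa using by omega
        · exact h
      suffices c ≤ (r * B + K) * A + B * L by nlinarith
      by_contra h
      have := Nat.mul_le_mul_left r (not_le.1 h : _ + 1 ≤ c)
      nlinarith
    · set t := c / (r * A + L) with ht
      have ht1 : t * (r * A + L) ≤ c := Nat.div_mul_le_self _ _
      have ht2 : c < (t + 1) * (r * A + L) := by
        rw [mul_comm]; exact Nat.lt_mul_div_succ c (by omega)
      have htB' : t + 1 ≤ B := by
        by_contra h
        have := Nat.mul_le_mul_right (r * A + L) (Nat.lt_succ_iff.1 (not_le.1 h) : B ≤ t)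
        omega
      have hLK : L ≤ K * A + 1 := by
        rcases hcond with rfl | ⟨-, h | h⟩
        · omega
        · have h1 : r ≤ r * B := Nat.le_mul_of_pos_right r (lt_of_lt_of_le (Nat.succ_pos t) htB')
          omega
        · exact h
      refine ⟨t, le_trans (Nat.mul_le_mul_left r (by omega : t ≤ B)) (Nat.le_add_right _ _),
        ht1, ?_⟩
      have := Nat.mul_le_mul_right (r * A) htB'
      nlinarith

end Cfsg.Agent.H80
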